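import Mathlib

/-!
Jordan's theorem on primitive groups containing a cycle of prime length.
-/

set_option autoImplicit false

namespace Cfsg.Agent.Lib.Perm

open MulAction

section

variable {α : Type*} [Fintype α] [DecidableEq α]

/-- In a `k`-transitive group, values can be prescribed on at most `k` points. -/
theorem exists_perm_prescribed (G : Subgroup (Equiv.Perm α)) {k : ℕ} (hkn : k ≤ Fintype.card α)
    (hG : MulAction.IsMultiplyPretransitive G α k) (D : Finset α) (hD : D.card ≤ k) (f : α → α)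
    (hf : Set.InjOn f D) : ∃ h ∈ G, ∀ x ∈ D, h x = f x := by
  classical
  have hj : MulAction.IsMultiplyPretransitive G α D.card :=
    MulAction.isMultiplyPretransitive_of_le (n := k) hD (by rwa [Nat.card_eq_fintype_card])
  let e := D.equivFin.symm
  let x : Fin D.card ↪ α := ⟨fun i => (e i : α), fun i j hij => e.injective (Subtype.ext hij)⟩
  let x' : Fin D.card ↪ α := ⟨fun i => f (e i : α), fun i j hij =>
    e.injective (Subtype.ext (hf (e i).2 (e j).2 hij))⟩
  obtain ⟨g, hg⟩ := MulAction.exists_smul_eq G x x'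
  refine ⟨g.1, g.2, fun y hy => ?_⟩
  have h1 : e (D.equivFin ⟨y, hy⟩) = ⟨y, hy⟩ := D.equivFin.symm_apply_apply _
  have h2 := DFunLike.congr_fun hg (D.equivFin ⟨y, hy⟩)
  rw [Function.Embedding.smul_apply] at h2
  change g • ((e _ : D) : α) = f ((e _ : D) : α) at h2
  rw [h1] at h2
  exact h2

end

/-- Sylow conjugacy for subgroups of prime order when the square of the prime does not divide the
order of the group. -/
theorem exists_conj_mem_zpowers {Γ : Type*} [Group Γ] [Finite Γ] {p : ℕ} [Fact p.Prime]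
    (hsq : ¬ p ^ 2 ∣ Nat.card Γ) (x y : Γ) (hx : orderOf x = p) (hy : orderOf y = p) :
    ∃ f : Γ, f * x * f⁻¹ ∈ Subgroup.zpowers y := by
  have key : ∀ z : Γ, orderOf z = p → ∃ P : Sylow p Γ, (P : Subgroup Γ) = Subgroup.zpowers z := by
    intro z hz
    have hc : Nat.card (Subgroup.zpowers z) = p := by rw [Nat.card_zpowers, hz]
    have hP : IsPGroup p (Subgroup.zpowers z) := IsPGroup.of_card (n := 1) (by rw [hc, pow_one])
    have hi : ¬ p ∣ (Subgroup.zpowers z).index := by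
      intro h
      apply hsq
      rw [← (Subgroup.zpowers z).index_mul_card, hc, pow_two]
      exact Nat.mul_dvd_mul_right h p
    exact ⟨hP.toSylow hi, rfl⟩
  obtain ⟨P, hP⟩ := key x hx
  obtain ⟨Q, hQ⟩ := key y hy
  obtain ⟨f, hf⟩ := MulAction.exists_smul_eq Γ P Q
  refine ⟨f, ?_⟩
  rw [← hQ, ← hf, Sylow.coe_subgroup_smul, hP]
  have := Subgroup.smul_mem_pointwise_smul x (MulAut.conj f) _ (Subgroup.mem_zpowers x)
  simpa [MulAut.smul_def] using this

section Main

variable {α : Type*} [Fintype α] [DecidableEq α]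

private lemma pai (h : Equiv.Perm α) (x : α) : h (h⁻¹ x) = x := Equiv.apply_symm_apply h x

private lemma ipa (h : Equiv.Perm α) (x : α) : h⁻¹ (h x) = x := Equiv.symm_apply_apply h x

/-- Jordan's theorem. -/
theorem alternatingGroup_le_of_prime_cycle (G : Subgroup (Equiv.Perm α)) (hG : IsPreprimitive G α)
    {p : ℕ} (hp : p.Prime) (hpn : p + 3 ≤ Fintype.card α) {g : Equiv.Perm α} (hgc : g.IsCycle)
    (hgp : g.support.card = p) (hg : g ∈ G) : alternatingGroup α ≤ G := by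
  classical
  haveI : Fact p.Prime := ⟨hp⟩
  set T := g.support with hTdef
  have hmemT : ∀ x, x ∈ T ↔ g x ≠ x := fun x => Equiv.Perm.mem_support
  have hnotT : ∀ x, x ∉ T → g x = x := fun x hx => by
    by_contra hcon
    exact hx ((hmemT x).mpr hcon)
  -- multiple transitivity
  obtain ⟨n, hn⟩ : ∃ n, Fintype.card α = p + (n + 1) := ⟨Fintype.card α - p - 1, by omega⟩
  have hn2 : 2 ≤ n := by omega
  have hcardT : (Tᶜ).card = n + 1 := by
    rw [Finset.card_compl, hgp, hn]; omega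
  have htrans : IsMultiplyPretransitive G α (n + 2) := by
    have hprim := hG.isMultiplyPreprimitive (s := ((T : Set α)ᶜ)) (n := n)
      (by
        rw [← Finset.coe_compl, Set.ncard_coe_finset, hcardT])
      (by
        rw [Nat.card_eq_fintype_card, hn]
        have := hp.two_le
        omega)
      (by
        have := Equiv.Perm.isPretransitive_of_isCycle_mem hgc hg
        apply IsPreprimitive.of_prime_card
        convert hp
        rw [Nat.card_eq_fintype_card, Fintype.card_subtype, ← hgp]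
        apply congr_arg
        ext x
        simp [SubMulAction.mem_ofFixingSubgroup_iff, hTdef])
    exact hprim.isMultiplyPretransitive
  -- restriction to `T`
  let K : Subgroup (Equiv.Perm α) := (Equiv.Perm.ofSubtype : Equiv.Perm {x // x ∈ T} →* Equiv.Perm α).range
  have hK : ∀ σ : Equiv.Perm α, (∀ x, x ∉ T → σ x = x) → σ ∈ K := by
    intro σ hσ
    apply Equiv.Perm.mem_range_ofSubtype_iff.mpr
    intro x hx
    by_contra hcon
    exact (Equiv.Perm.mem_support.mp hx) (hσ x hcon)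
  have hK' : ∀ σ ∈ K, ∀ x, x ∉ T → σ x = x := by
    intro σ hσ x hx
    have := Equiv.Perm.mem_range_ofSubtype_iff.mp hσ
    by_contra hcon
    exact hx (this (Equiv.Perm.mem_support.mpr hcon))
  let F : Subgroup (Equiv.Perm α) := G ⊓ K
  have hKcard : Nat.card K = Nat.factorial p := by
    have h1 : Function.Injective (Equiv.Perm.ofSubtype : Equiv.Perm {x // x ∈ T} →* Equiv.Perm α) :=
      Equiv.Perm.ofSubtype_injective
    have h2 := Nat.card_congr (MonoidHom.ofInjective h1).toEquiv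
    show Nat.card (Equiv.Perm.ofSubtype : Equiv.Perm {x // x ∈ T} →* Equiv.Perm α).range = _
    rw [← h2, Nat.card_perm, Nat.card_eq_fintype_card, Fintype.card_coe, hgp]
  have hsq : ¬ p ^ 2 ∣ Nat.card F := by
    intro h
    have h1 : Nat.card F ∣ Nat.card K := Subgroup.card_dvd_of_le inf_le_right
    rw [hKcard] at h1
    have h2 := h.trans h1
    have hp0 : 0 < p := hp.pos
    obtain ⟨m, rfl⟩ : ∃ m, p = m + 1 := ⟨p - 1, by omega⟩
    rw [Nat.factorial_succ, pow_two] at h2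
    have h3 := Nat.dvd_of_mul_dvd_mul_left hp0 h2
    have h4 := (Nat.Prime.dvd_factorial hp).mp h3
    omega
  have hordg : orderOf g = p := by
    rw [hgc.orderOf, hgp]
  -- preservation of `T`
  have hpres : ∀ (b τ : Equiv.Perm α), (∀ x ∈ T, τ x = x) → (∀ w, w ∉ T → b w = τ w) →
      ∀ x ∈ T, b x ∈ T := by
    intro b τ hτ hb x hx
    by_contra hcon
    have hw : τ⁻¹ (b x) ∉ T := by
      intro h
      have := hτ _ h
      rw [pai] at this
      rw [this] at hcon
      exact hcon h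
    have h1 := hb _ hw
    rw [pai] at h1
    have h2 := b.injective h1
    rw [← h2] at hx
    exact hw hx
  have hτout : ∀ (τ : Equiv.Perm α), (∀ x ∈ T, τ x = x) → ∀ w, w ∉ T → τ w ∉ T := by
    intro τ hτ w hw h
    have := hτ _ h
    have h2 := τ.injective this
    rw [h2] at h
    exact hw h
  -- normaliser elements inducing prescribed permutations
  have hb : ∀ τ : Equiv.Perm α, (∀ x ∈ T, τ x = x) →
      ∃ b ∈ G, (∀ w, w ∉ T → b w = τ w) ∧ ∃ k : ℤ, b * g * b⁻¹ = g ^ k := by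
    intro τ hτ
    obtain ⟨a, ha, haτ⟩ := exists_perm_prescribed G (k := n + 2) (by rw [hn]; have := hp.two_le; omega)
      htrans Tᶜ (by rw [hcardT]; omega) τ (τ.injective.injOn)
    have haτ' : ∀ w, w ∉ T → a w = τ w := fun w hw => haτ w (Finset.mem_compl.mpr hw)
    have haT := hpres a τ hτ haτ'
    have hainv : ∀ w, w ∉ T → a⁻¹ w ∉ T := by
      intro w hw h
      have := haT _ h
      rw [pai] at this
      exact hw this
    have hg1F : a * g * a⁻¹ ∈ F := by
      refine ⟨G.mul_mem (G.mul_mem ha hg) (G.inv_mem ha), hK _ ?_⟩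
      intro x hx
      show a (g (a⁻¹ x)) = x
      rw [hnotT _ (hainv x hx), pai]
    have hgF : g ∈ F := ⟨hg, hK _ hnotT⟩
    obtain ⟨f, hf⟩ := exists_conj_mem_zpowers (Γ := F) hsq ⟨a * g * a⁻¹, hg1F⟩ ⟨g, hgF⟩
      (by
        rw [Subgroup.orderOf_mk]
        have : orderOf (a * g * a⁻¹) = orderOf g :=
          orderOf_injective (MulAut.conj a).toMonoidHom (MulEquiv.injective _) g
        rw [this, hordg])
      (by rw [Subgroup.orderOf_mk, hordg])
    obtain ⟨k, hk⟩ := Subgroup.mem_zpowers_iff.mp hf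
    refine ⟨f.1 * a, G.mul_mem f.2.1 ha, ?_, k, ?_⟩
    · intro w hw
      show f.1 (a w) = τ w
      rw [haτ' w hw]
      exact hK' _ f.2.2 _ (hτout τ hτ w hw)
    · have h2 := congrArg Subtype.val hk
      simp only [Subgroup.coe_mul, InvMemClass.coe_inv, SubgroupClass.coe_zpow] at h2
      have e : f.1 * a * g * (f.1 * a)⁻¹ = f.1 * (a * g * a⁻¹) * (f.1)⁻¹ := by group
      rw [e, ← h2]
  -- three fixed points of `g`
  have h3 : 2 < (Tᶜ).card := by omega
  obtain ⟨x, y, z, hx, hy, hz, hxy, hxz, hyz⟩ := Finset.two_lt_card_iff.mp h3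
  rw [Finset.mem_compl] at hx hy hz
  have hxT : ∀ u ∈ T, u ≠ x := fun u hu h => hx (h ▸ hu)
  have hyT : ∀ u ∈ T, u ≠ y := fun u hu h => hy (h ▸ hu)
  have hzT : ∀ u ∈ T, u ≠ z := fun u hu h => hz (h ▸ hu)
  set τ₁ : Equiv.Perm α := Equiv.swap x y with hτ₁
  set τ₂ : Equiv.Perm α := Equiv.swap y z with hτ₂
  have hτ₁T : ∀ u ∈ T, τ₁ u = u := fun u hu =>
    Equiv.swap_apply_of_ne_of_ne (hxT u hu) (hyT u hu)
  have hτ₂T : ∀ u ∈ T, τ₂ u = u := fun u hu =>
    Equiv.swap_apply_of_ne_of_ne (hyT u hu) (hzT u hu)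
  obtain ⟨b₁, hb₁, hb₁τ, k₁, hk₁⟩ := hb τ₁ hτ₁T
  obtain ⟨b₂, hb₂, hb₂τ, k₂, hk₂⟩ := hb τ₂ hτ₂T
  set σ : Equiv.Perm α := τ₁ * τ₂ with hσ
  have hσinv : σ⁻¹ = τ₂ * τ₁ := by
    rw [hσ, mul_inv_rev, hτ₁, hτ₂, Equiv.swap_inv, Equiv.swap_inv]
  have hσthree : σ.IsThreeCycle := by
    have := Equiv.Perm.isThreeCycle_swap_mul_swap_same (a := y) (b := x) (c := z) hxy.symm hyz hxz
    rwa [Equiv.swap_comm y x] at this
  set ρ : Equiv.Perm α := σ * σ with hρ
  have hρthree : ρ.IsThreeCycle := hσthree.isThreeCycle_sq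
  have hσT : ∀ u ∈ T, σ u = u := by
    intro u hu
    show τ₁ (τ₂ u) = u
    rw [hτ₂T u hu, hτ₁T u hu]
  have hρT : ∀ u ∈ T, ρ u = u := by
    intro u hu
    show σ (σ u) = u
    rw [hσT u hu, hσT u hu]
  -- the commutator
  set c : Equiv.Perm α := (b₂ * b₁)⁻¹ * (b₁ * b₂) with hc
  have hcG : c ∈ G := G.mul_mem (G.inv_mem (G.mul_mem hb₂ hb₁)) (G.mul_mem hb₁ hb₂)
  have hconj : (b₁ * b₂) * g * (b₁ * b₂)⁻¹ = (b₂ * b₁) * g * (b₂ * b₁)⁻¹ := by
    have e1 : (b₁ * b₂) * g * (b₁ * b₂)⁻¹ = b₁ * (b₂ * g * b₂⁻¹) * b₁⁻¹ := by group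
    have e2 : (b₂ * b₁) * g * (b₂ * b₁)⁻¹ = b₂ * (b₁ * g * b₁⁻¹) * b₂⁻¹ := by group
    rw [e1, e2, hk₁, hk₂, ← conj_zpow, ← conj_zpow, hk₁, hk₂, ← zpow_mul, ← zpow_mul, mul_comm]
  have hcomm : c * g = g * c := by
    have e1 : b₁ * b₂ * g = b₂ * b₁ * g * (b₂ * b₁)⁻¹ * (b₁ * b₂) := by
      rw [← hconj]; group
    rw [hc, mul_assoc, e1]
    group
  have hcout : ∀ w, w ∉ T → c w = ρ w := by
    intro w hw
    have e1 : (b₁ * b₂) w = σ w := by
      show b₁ (b₂ w) = τ₁ (τ₂ w)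
      rw [hb₂τ w hw, hb₁τ _ (hτout τ₂ hτ₂T w hw)]
    have hσw : σ w ∉ T := hτout σ hσT w hw
    have e2 : (b₂ * b₁)⁻¹ (σ w) = σ (σ w) := by
      rw [Equiv.Perm.inv_eq_iff_eq]
      show σ w = b₂ (b₁ (σ (σ w)))
      have hσσ : σ (σ w) ∉ T := hτout σ hσT _ hσw
      rw [hb₁τ _ hσσ, hb₂τ _ (hτout τ₁ hτ₁T _ hσσ)]
      have : τ₂ (τ₁ (σ (σ w))) = σ⁻¹ (σ (σ w)) := by rw [hσinv]; rfl
      rw [this, ipa]
    show (b₂ * b₁)⁻¹ ((b₁ * b₂) w) = σ (σ w)
    rw [e1, e2]
  have hcT := hpres c ρ hρT hcout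
  -- correcting by a power of `g`
  obtain ⟨t, ht⟩ : T.Nonempty := by
    rw [← Finset.card_pos, hgp]; exact hp.pos
  have hct := hcT t ht
  obtain ⟨j, hj⟩ := hgc.sameCycle ((hmemT t).mp ht) ((hmemT _).mp hct)
  have hcg : ∀ i : ℤ, c * g ^ i = g ^ i * c := fun i => (Commute.zpow_right hcomm i)
  have hgjout : ∀ (i : ℤ) (w : α), w ∉ T → (g ^ i) w = w := by
    intro i w hw
    have hfix : Function.IsFixedPt g w := hnotT w hw
    exact hfix.perm_zpow i
  have hd : (g ^ j)⁻¹ * c = ρ := by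
    ext u
    by_cases hu : u ∈ T
    · obtain ⟨i, hi⟩ := hgc.sameCycle ((hmemT t).mp ht) ((hmemT u).mp hu)
      rw [hρT u hu]
      show (g ^ j)⁻¹ (c u) = u
      rw [Equiv.Perm.inv_eq_iff_eq, ← hi]
      have e1 : c ((g ^ i) t) = (c * g ^ i) t := rfl
      rw [e1, hcg i]
      show (g ^ i) (c t) = (g ^ j) ((g ^ i) t)
      rw [← hj]
      have e2 : (g ^ i) ((g ^ j) t) = (g ^ i * g ^ j) t := rfl
      have e3 : (g ^ j) ((g ^ i) t) = (g ^ j * g ^ i) t := rfl
      rw [e2, e3, ← zpow_add, ← zpow_add, add_comm]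
    · show (g ^ j)⁻¹ (c u) = ρ u
      rw [hcout u hu, Equiv.Perm.inv_eq_iff_eq]
      exact (hgjout j _ (hτout ρ hρT u hu)).symm
  have hρG : ρ ∈ G := by
    rw [← hd]
    exact G.mul_mem (G.inv_mem (G.zpow_mem hg j)) hcG
  exact Equiv.Perm.alternatingGroup_le_of_isPreprimitive_of_isThreeCycle_mem hG hρthree hρG

end Main

end Cfsg.Agent.Lib.Perm
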