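import Mathlib
import Cfsg.Agent.Lib.Perm.RegQ8
import Cfsg.Agent.Lib.Transfer.Frobenius
import Cfsg.Agent.Lib.FF.Hcond2
import Cfsg.Agent.Lib.FF.RankOne
import Cfsg.Agent.Lib.InvolChar.QuatPres
import Cfsg.Agent.Lib.Hall.CoprimeLemmas

/-!
Regular linear groups with at most one subgroup of order three are solvable and have a subgroup
of index two.
-/

set_option autoImplicit false
set_option linter.style.haveILetI false

namespace Cfsg.Agent.Lib.Perm.RegIdx

open Subgroup
open Cfsg.Agent.Lib.Perm.RegLin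
open scoped commutatorElement

universe u

/-- The group-theoretic consequences of regularity. -/
structure RegLike (G : Type*) [Group G] : Prop where
  cyc : ∀ A : Subgroup G, IsMulCommutative A → IsCyclic A
  inv : ∀ x y : G, orderOf x = 2 → orderOf y = 2 → x = y
  three : ∀ A B : Subgroup G, Nat.card A = 3 → Nat.card B = 3 → A = B

theorem perm_trivial {M : Type*} [Finite M] (hM : Nat.card M ≤ 4) (π : Equiv.Perm M) {m : ℕ}
    (hm : π ^ m = 1) (hc : Nat.Coprime m 6) : π = 1 := by
  classical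
  haveI : Fintype M := Fintype.ofFinite M
  have h1 : orderOf π ∣ m := orderOf_dvd_of_pow_eq_one hm
  have h2 : orderOf π ∣ Nat.card (Equiv.Perm M) := orderOf_dvd_natCard π
  have h3 : Nat.card (Equiv.Perm M) = (Nat.card M).factorial := by
    rw [Nat.card_eq_fintype_card, Nat.card_eq_fintype_card, Fintype.card_perm]
  have h4 : (Nat.card M).factorial ∣ 24 := Nat.factorial_dvd_factorial hM
  have h5 : orderOf π ∣ 24 := h2.trans (h3 ▸ h4)
  have h6 : Nat.Coprime m 24 := by
    have : (24 : ℕ) = 6 * 4 := by norm_num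
    rw [this]
    apply Nat.Coprime.mul_right hc
    have h7 : Nat.Coprime m 2 := Nat.Coprime.coprime_dvd_right (by norm_num) hc
    exact Nat.Coprime.pow_right 2 h7
  have h8 : orderOf π = 1 := Nat.Coprime.eq_one_of_dvd (Nat.Coprime.coprime_dvd_left h1 h6) h5
  exact orderOf_eq_one_iff.mp h8

section L1

variable {G : Type*} [Group G] [Finite G]

theorem card_frattini_quot_le (T : Subgroup G) (hT : IsPGroup 2 T) (a b : T)
    (hcov : ∀ x : T, x ∈ zpowers a ∨ x * b⁻¹ ∈ zpowers a) : Nat.card (T ⧸ frattini T) ≤ 4 := by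
  classical
  haveI : Fact (Nat.Prime 2) := ⟨Nat.prime_two⟩
  let φ : T →* T ⧸ frattini T := QuotientGroup.mk' (frattini T)
  have hsq : ∀ x : T, φ x ^ 2 = 1 := by
    intro x
    rw [← map_pow]
    exact (QuotientGroup.eq_one_iff _).mpr (Cfsg.Agent.Lib.Transfer.pow_mem_frattini hT x)
  have hpow : ∀ k : ℤ, φ a ^ k = 1 ∨ φ a ^ k = φ a := by
    intro k
    obtain ⟨l, hl | hl⟩ := Int.even_or_odd' k
    · left
      rw [hl, zpow_mul]
      have : φ a ^ (2 : ℤ) = 1 := by exact_mod_cast hsq a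
      rw [this, one_zpow]
    · right
      rw [hl, zpow_add, zpow_mul, zpow_one]
      have : φ a ^ (2 : ℤ) = 1 := by exact_mod_cast hsq a
      rw [this, one_zpow, one_mul]
  let f : Fin 4 → T ⧸ frattini T := ![1, φ a, φ b, φ a * φ b]
  have hf : Function.Surjective f := by
    intro y
    obtain ⟨x, rfl⟩ := QuotientGroup.mk'_surjective (frattini T) y
    rcases hcov x with h | h
    · obtain ⟨k, hk⟩ := h
      have e : φ x = φ a ^ k := by rw [← map_zpow, ← hk]
      show ∃ i, f i = φ x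
      rcases hpow k with h1 | h1
      · exact ⟨0, by simp [f, e, h1]⟩
      · exact ⟨1, by simp [f, e, h1]⟩
    · obtain ⟨k, hk⟩ := h
      have e : φ x = φ a ^ k * φ b := by
        rw [← map_zpow]
        show φ x = φ ((fun y : ℤ => a ^ y) k) * φ b
        rw [hk, map_mul, map_inv]
        group
      show ∃ i, f i = φ x
      rcases hpow k with h1 | h1
      · exact ⟨2, by simp [f, e, h1]⟩
      · exact ⟨3, by simp [f, e, h1]⟩
  have := Nat.card_le_card_of_surjective f hf
  simpa using this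

/-- Lemma: elements of order prime to six act trivially on 2-subgroups covered by two cyclic
cosets. -/
theorem centralizes_of_small (T : Subgroup G) (hT : IsPGroup 2 T) {c : G}
    (hcn : c ∈ normalizer (T : Set G)) (hc : Nat.Coprime (orderOf c) 6) (a b : T)
    (hcov : ∀ x : T, x ∈ zpowers a ∨ x * b⁻¹ ∈ zpowers a) : ∀ u ∈ T, c * u * c⁻¹ = u := by
  classical
  haveI : Fact (Nat.Prime 2) := ⟨Nat.prime_two⟩
  have hle := card_frattini_quot_le T hT a b hcov
  have hc2 : Nat.Coprime (orderOf c) 2 := Nat.Coprime.coprime_dvd_right (by norm_num) hc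
  let α : T ≃* T := Cfsg.Agent.Lib.Hall.normalizerAut T hcn
  have hαc : ∀ u : T, ((α u : T) : G) = c * u * c⁻¹ := fun _ => rfl
  have hmap : (frattini T).map α.toMonoidHom = frattini T := by
    exact (Subgroup.characteristic_iff_map_eq.mp inferInstance α)
  let π : (T ⧸ frattini T) ≃* (T ⧸ frattini T) := QuotientGroup.congr _ _ α hmap
  have hπ : ∀ u : T, π (u : T ⧸ frattini T) = ((α u : T) : T ⧸ frattini T) := fun _ => rfl
  have hpow : ∀ (k : ℕ) (u : T), ((π.toEquiv : Equiv.Perm (T ⧸ frattini T)) ^ k) (u : T ⧸ frattini T) =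
      ((⟨c ^ k * u * (c ^ k)⁻¹, (Subgroup.mem_normalizer_iff.mp (pow_mem hcn k) u).mp u.2⟩ : T) :
        T ⧸ frattini T) := by
    intro k
    induction k with
    | zero =>
      intro u
      simp
    | succ k ih =>
      intro u
      rw [pow_succ', Equiv.Perm.mul_apply, ih]
      show π _ = _
      rw [hπ]
      congr 1
      apply Subtype.ext
      rw [hαc]
      simp only [pow_succ']
      group
  have htriv : (π.toEquiv : Equiv.Perm (T ⧸ frattini T)) = 1 := by
    apply perm_trivial hle _ (m := orderOf c) _ hc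
    ext y
    obtain ⟨u, rfl⟩ := QuotientGroup.mk'_surjective (frattini T) y
    show ((π.toEquiv : Equiv.Perm (T ⧸ frattini T)) ^ orderOf c) (u : T ⧸ frattini T) = _
    rw [hpow]
    simp [pow_orderOf_eq_one]
  refine Cfsg.Agent.Lib.FF.centralizes_of_frattini_trivial T hT
    (fun u hu => (Subgroup.mem_normalizer_iff.mp hcn u).mp hu) hc2 ?_
  intro u hu
  have h1 : π ((⟨u, hu⟩ : T) : T ⧸ frattini T) = ((⟨u, hu⟩ : T) : T ⧸ frattini T) := by
    have := DFunLike.congr_fun htriv ((⟨u, hu⟩ : T) : T ⧸ frattini T)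
    exact this
  rw [hπ] at h1
  have h2 := QuotientGroup.eq.mp h1.symm
  refine ⟨_, h2, ?_⟩
  simp [hαc]

end L1

section Perfect

variable {G : Type*} [Group G]

theorem RegLike.subgroup (h : RegLike G) (N : Subgroup G) : RegLike N := by
  refine ⟨fun A hA => ?_, fun x y hx hy => ?_, fun A B hA hB => ?_⟩
  · have hmc : IsMulCommutative (A.map N.subtype : Subgroup G) := by
      refine ⟨⟨?_⟩⟩
      rintro ⟨_, x, hx, rfl⟩ ⟨_, y, hy, rfl⟩
      apply Subtype.ext
      have h1 := hA.is_comm.comm (⟨x, hx⟩ : A) ⟨y, hy⟩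
      have h2 := congrArg (fun z : A => (((z : N) : G))) h1
      exact h2
    have h3 := h.cyc _ hmc
    exact isCyclic_of_surjective (A.equivMapOfInjective N.subtype N.subtype_injective).symm
      (MulEquiv.surjective _)
  · apply Subtype.ext
    apply h.inv
    · rw [Subgroup.orderOf_coe]; exact hx
    · rw [Subgroup.orderOf_coe]; exact hy
  · have h1 : A.map N.subtype = B.map N.subtype := by
      apply h.three
      · rw [Nat.card_congr (A.equivMapOfInjective N.subtype N.subtype_injective).toEquiv.symm]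
        exact hA
      · rw [Nat.card_congr (B.equivMapOfInjective N.subtype N.subtype_injective).toEquiv.symm]
        exact hB
    exact Subgroup.map_injective N.subtype_injective h1

theorem false_of_perfect_surj (hp : commutator G = ⊤) {Q : Type*} [Group Q] [Group.IsSolvable Q]
    [Nontrivial Q] (f : G →* Q) (hf : Function.Surjective f) : False := by
  have h1 : commutator Q = ⊤ := by
    have h2 := Subgroup.map_commutator (⊤ : Subgroup G) ⊤ f
    rw [← commutator_def, hp, ← MonoidHom.range_eq_map, MonoidHom.range_eq_top.mpr hf] at h2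
    rw [commutator_def]
    exact h2.symm
  have h3 := IsSolvable.commutator_lt_top_of_nontrivial Q
  rw [h1] at h3
  exact lt_irrefl _ h3

theorem sylow_cyclic (h : RegLike G) [Finite G] {r : ℕ} [Fact r.Prime] (hr : r ≠ 2) (P : Sylow r G) :
    IsCyclic P := by
  apply Cfsg.Agent.Lib.FF.isCyclic_of_rank_le_one P.isPGroup' hr
  intro E hE hEq
  have hEc : IsCyclic E := (h.subgroup P).cyc E hE
  obtain ⟨g, hg⟩ := hEc.exists_generator
  have h4 := orderOf_eq_card_of_forall_mem_zpowers hg
  have h5 : orderOf g ∣ r := by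
    apply orderOf_dvd_of_pow_eq_one
    apply Subtype.ext
    exact hEq g g.2
  rw [← h4]
  exact Nat.le_of_dvd (Fact.out : r.Prime).pos h5

theorem three_false (h : RegLike G) [Finite G] (hp : commutator G = ⊤) (h3 : 3 ∣ Nat.card G) : False := by
  classical
  haveI : Fact (Nat.Prime 3) := ⟨Nat.prime_three⟩
  obtain ⟨t, ht⟩ := exists_prime_orderOf_dvd_card' (G := G) 3 h3
  let T : Subgroup G := zpowers t
  have hTc : Nat.card T = 3 := by rw [Nat.card_zpowers, ht]
  haveI hTn : T.Normal := by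
    refine ⟨fun x hx g => ?_⟩
    have h1 : T.map (MulAut.conj g).toMonoidHom = T := by
      apply h.three _ _ _ hTc
      rw [Nat.card_congr (T.equivMapOfInjective (MulAut.conj g).toMonoidHom
        (MulEquiv.injective _)).toEquiv.symm]
      exact hTc
    rw [← h1]
    exact ⟨x, hx, rfl⟩
  haveI : IsCyclic T := inferInstance
  let φ : G →* MulAut T := MulAut.conjNormal
  have hcardAut : Nat.card (MulAut T) = 2 := by
    rw [IsCyclic.card_mulAut, hTc]
    rfl
  haveI : Fact (Nat.Prime (Nat.card (MulAut T))) := ⟨by rw [hcardAut]; exact Nat.prime_two⟩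
  haveI hAc : IsCyclic (MulAut T) := isCyclic_of_prime_card rfl
  letI : CommGroup (MulAut T) := IsCyclic.commGroup
  have hker : φ = 1 := by
    have h1 : commutator G ≤ φ.ker := Abelianization.commutator_subset_ker φ
    rw [hp, top_le_iff] at h1
    exact MonoidHom.ker_eq_top_iff.mp h1
  have hcent : ∀ g : G, g * t * g⁻¹ = t := by
    intro g
    have h1 := DFunLike.congr_fun (DFunLike.congr_fun hker g) (⟨t, mem_zpowers t⟩ : T)
    exact congrArg Subtype.val h1
  have hTp : IsPGroup 3 T := IsPGroup.of_card (n := 1) (by rw [hTc, pow_one])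
  obtain ⟨P, hP⟩ := hTp.exists_le_sylow
  haveI hPc : IsCyclic P := sylow_cyclic h (by norm_num) P
  letI : CommGroup (P : Subgroup G) := IsCyclic.commGroup
  let f : G →* (P : Subgroup G) := (MonoidHom.id (P : Subgroup G)).transfer
  have hf : f = 1 := by
    have h1 : commutator G ≤ f.ker := Abelianization.commutator_subset_ker f
    rw [hp, top_le_iff] at h1
    exact MonoidHom.ker_eq_top_iff.mp h1
  have hval := MonoidHom.transfer_eq_pow (H := (P : Subgroup G)) (MonoidHom.id (P : Subgroup G)) t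
    (by
      intro k g₀ _
      have h1 : ∀ k : ℕ, g₀⁻¹ * t ^ k * g₀ = t ^ k := by
        intro k
        induction k with
        | zero => simp
        | succ k ih =>
          have h2 := hcent g₀⁻¹
          rw [inv_inv] at h2
          calc g₀⁻¹ * t ^ (k + 1) * g₀ = (g₀⁻¹ * t ^ k * g₀) * (g₀⁻¹ * t * g₀) := by
                rw [pow_succ]; group
            _ = _ := by rw [ih, h2, pow_succ]
      exact h1 k)
  have h1 : f t = 1 := by rw [hf]; rfl
  have h2 : t ^ (P : Subgroup G).index = 1 := by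
    have h4 := congrArg Subtype.val (hval.symm.trans h1)
    exact h4
  have h5 : orderOf t ∣ (P : Subgroup G).index := orderOf_dvd_of_pow_eq_one h2
  rw [ht] at h5
  exact P.not_dvd_index h5

theorem cover_of_two (h : RegLike G) [Finite G] (T : Subgroup G) (hT : IsPGroup 2 T) :
    ∃ a b : T, ∀ x : T, x ∈ zpowers a ∨ x * b⁻¹ ∈ zpowers a := by
  classical
  haveI : Fact (Nat.Prime 2) := ⟨Nat.prime_two⟩
  by_cases hc : IsMulCommutative T
  · haveI := h.cyc T hc
    obtain ⟨g, hg⟩ := IsCyclic.exists_generator (α := T)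
    exact ⟨g, 1, fun x => Or.inl (hg x)⟩
  · have hnt : Nontrivial T := by
      by_contra hn
      rw [not_nontrivial_iff_subsingleton] at hn
      exact hc ⟨⟨fun x y => Subsingleton.elim _ _⟩⟩
    obtain ⟨k, hk⟩ := IsPGroup.iff_card.mp hT
    have h2 : 2 ∣ Nat.card T := by
      rw [hk]
      apply dvd_pow_self
      rintro rfl
      rw [pow_zero] at hk
      exact (Finite.one_lt_card_iff_nontrivial.mpr hnt).ne' hk
    obtain ⟨x, hx⟩ := exists_prime_orderOf_dvd_card' (G := T) 2 h2
    have hU : ∃! x : T, orderOf x = 2 := by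
      refine ⟨x, hx, fun y hy => ?_⟩
      apply Subtype.ext
      apply h.inv
      · rw [Subgroup.orderOf_coe]; exact hy
      · rw [Subgroup.orderOf_coe]; exact hx
    obtain ⟨a, b, n, _, _, _, _, _, hcov⟩ := Cfsg.Agent.Lib.InvolChar.exists_quat_pres hT hc hU
    exact ⟨a, b, hcov⟩

theorem frob_false (h : RegLike G) [Finite G] (hp : commutator G = ⊤) (h3 : ¬ 3 ∣ Nat.card G)
    (h2 : 2 ∣ Nat.card G) : False := by
  classical
  haveI : Fact (Nat.Prime 2) := ⟨Nat.prime_two⟩
  let P : Sylow 2 G := default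
  have hyp : Cfsg.Agent.Lib.Transfer.FrobeniusHyp 2 (P : Subgroup G) := by
    intro Q hQ g hg hgc
    have hQp : IsPGroup 2 Q := P.isPGroup'.to_le hQ
    obtain ⟨a, b, hcov⟩ := cover_of_two h Q hQp
    have hg3 : Nat.Coprime (orderOf g) 3 := by
      rw [Nat.coprime_comm, Nat.Prime.coprime_iff_not_dvd Nat.prime_three]
      exact fun h5 => h3 (h5.trans (orderOf_dvd_natCard g))
    have hg6 : Nat.Coprime (orderOf g) 6 := by
      have : (6 : ℕ) = 2 * 3 := by norm_num
      rw [this]
      exact Nat.Coprime.mul_right hgc hg3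
    have := centralizes_of_small Q hQp hg hg6 a b hcov
    rw [Subgroup.mem_centralizer_iff]
    intro x hx
    have h5 := this x hx
    calc x * g = (g * x * g⁻¹) * g := by rw [h5]
      _ = g * x := by group
  obtain ⟨N, hNn, hN⟩ := Cfsg.Agent.Lib.Transfer.frobenius P hyp
  haveI := hNn
  have hidx : N.index = Nat.card (P : Subgroup G) := hN.symm.index_eq_card
  have hQcard : Nat.card (G ⧸ N) = Nat.card (P : Subgroup G) := hidx
  obtain ⟨k, hk⟩ := IsPGroup.iff_card.mp P.isPGroup'
  have hQp : IsPGroup 2 (G ⧸ N) := IsPGroup.of_card (n := k) (by rw [hQcard, hk])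
  haveI : Group.IsNilpotent (G ⧸ N) := hQp.isNilpotent
  have hnt : Nontrivial (G ⧸ N) := by
    rw [← Finite.one_lt_card_iff_nontrivial, hQcard]
    have hne := P.ne_bot_of_dvd_card h2
    rw [Finite.one_lt_card_iff_nontrivial]
    exact (Subgroup.nontrivial_iff_ne_bot _).mpr hne
  exact false_of_perfect_surj hp (QuotientGroup.mk' N) (QuotientGroup.mk'_surjective N)

theorem odd_false (h : RegLike G) [Finite G] [Nontrivial G] (hp : commutator G = ⊤)
    (h2 : ¬ 2 ∣ Nat.card G) : False := by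
  classical
  haveI : IsZGroup G := by
    refine ⟨fun r hr P => ?_⟩
    haveI : Fact r.Prime := ⟨hr⟩
    by_cases hr2 : r = 2
    · subst hr2
      have hbot : (P : Subgroup G) = ⊥ := by
        obtain ⟨k, hk⟩ := IsPGroup.iff_card.mp P.isPGroup'
        have h3 : Nat.card (P : Subgroup G) ∣ Nat.card G := Subgroup.card_subgroup_dvd_card _
        rcases Nat.eq_zero_or_pos k with h0 | h0
        · rw [h0, pow_zero] at hk
          exact Subgroup.eq_bot_of_card_eq _ hk
        · exact absurd ((dvd_pow_self 2 (by omega : k ≠ 0)).trans (hk ▸ h3)) h2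
      have h4 : Subsingleton (P : Subgroup G) := by
        rw [hbot]
        exact inferInstance
      exact isCyclic_of_subsingleton
    · exact sylow_cyclic h hr2 P
  exact false_of_perfect_surj hp (MonoidHom.id G) Function.surjective_id

theorem perfect_false (h : RegLike G) [Finite G] [Nontrivial G] (hp : commutator G = ⊤) : False := by
  by_cases h3 : 3 ∣ Nat.card G
  · exact three_false h hp h3
  · by_cases h2 : 2 ∣ Nat.card G
    · exact frob_false h hp h3 h2
    · exact odd_false h hp h2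

/-- Groups of regular type are solvable. -/
theorem solvable (h : RegLike G) [Finite G] : Group.IsSolvable G := by
  classical
  rw [Group.isSolvable_iff_commutator_lt]
  intro H hH
  by_contra hlt
  have hle : ⁅H, H⁆ ≤ H := Subgroup.commutator_le_self H
  have heq : ⁅H, H⁆ = H := by
    by_contra hne
    exact hlt (lt_of_le_of_ne hle hne)
  haveI hnt : Nontrivial H := (Subgroup.nontrivial_iff_ne_bot H).mpr hH
  apply perfect_false (h.subgroup H)
  apply Subgroup.map_injective H.subtype_injective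
  rw [commutator_def, Subgroup.map_commutator, ← MonoidHom.range_eq_map, Subgroup.range_subtype, heq]
  
end Perfect

section Index

theorem index_two_of_surj {H Q : Type*} [Group H] [Group Q] [Finite Q] (f : H →* Q)
    (hf : Function.Surjective f) (hQ : IsPGroup 2 Q) [hnt : Nontrivial Q] :
    ∃ N : Subgroup H, N.index = 2 := by
  classical
  haveI : Fact (Nat.Prime 2) := ⟨Nat.prime_two⟩
  obtain ⟨k, hk⟩ := IsPGroup.iff_card.mp hQ
  have hk0 : k ≠ 0 := by
    rintro rfl
    rw [pow_zero] at hk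
    exact (Finite.one_lt_card_iff_nontrivial.mpr hnt).ne' hk
  obtain ⟨l, rfl⟩ : ∃ l, k = l + 1 := ⟨k - 1, by omega⟩
  obtain ⟨K, hK⟩ := Sylow.exists_subgroup_card_pow_prime (G := Q) 2 (n := l)
    (by rw [hk]; exact pow_dvd_pow 2 (by omega))
  have hidx : K.index = 2 := by
    have h1 := K.card_mul_index
    rw [hK, hk, pow_succ] at h1
    exact Nat.eq_of_mul_eq_mul_left (by positivity) h1
  refine ⟨K.comap f, ?_⟩
  rw [Subgroup.index_comap_of_surjective K hf, hidx]

theorem index_two_of_comm {Q : Type*} [CommGroup Q] [Finite Q] (h2 : 2 ∣ Nat.card Q) :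
    ∃ N : Subgroup Q, N.index = 2 := by
  classical
  haveI : Fact (Nat.Prime 2) := ⟨Nat.prime_two⟩
  obtain ⟨t, ht⟩ := exists_prime_orderOf_dvd_card' (G := Q) 2 h2
  let R : Subgroup Q := (powMonoidHom 2 : Q →* Q).range
  have hR : R ≠ ⊤ := by
    intro hR
    have hs : Function.Surjective (powMonoidHom 2 : Q →* Q) := MonoidHom.range_eq_top.mp hR
    have hi := Finite.injective_iff_surjective.mpr hs
    have h1 : t = 1 := by
      apply hi
      show t ^ 2 = 1 ^ 2
      rw [one_pow, ← ht]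
      exact pow_orderOf_eq_one t
    rw [h1, orderOf_one] at ht
    omega
  have hp : IsPGroup 2 (Q ⧸ R) := by
    intro x
    obtain ⟨y, rfl⟩ := QuotientGroup.mk'_surjective R x
    refine ⟨1, ?_⟩
    rw [pow_one, ← map_pow]
    exact (QuotientGroup.eq_one_iff _).mpr ⟨y, rfl⟩
  haveI : Nontrivial (Q ⧸ R) := by
    rw [← Finite.one_lt_card_iff_nontrivial]
    have h3 : Nat.card (Q ⧸ R) ≠ 1 := by
      intro h4
      apply hR
      exact Subgroup.index_eq_one.mp h4
    have h5 : 0 < Nat.card (Q ⧸ R) := Nat.card_pos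
    omega
  exact index_two_of_surj (QuotientGroup.mk' R) (QuotientGroup.mk'_surjective R) hp

theorem index_two_of_complement {H : Type*} [Group H] [Finite H] (h2 : 2 ∣ Nat.card H)
    (P : Sylow 2 H) (N : Subgroup H) [N.Normal] (hN : N.IsComplement' (P : Subgroup H)) :
    ∃ M : Subgroup H, M.index = 2 := by
  haveI : Fact (Nat.Prime 2) := ⟨Nat.prime_two⟩
  have hidx : N.index = Nat.card (P : Subgroup H) := hN.symm.index_eq_card
  have hQcard : Nat.card (H ⧸ N) = Nat.card (P : Subgroup H) := hidx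
  obtain ⟨k, hk⟩ := IsPGroup.iff_card.mp P.isPGroup'
  have hQp : IsPGroup 2 (H ⧸ N) := IsPGroup.of_card (n := k) (by rw [hQcard, hk])
  haveI hnt : Nontrivial (H ⧸ N) := by
    rw [← Finite.one_lt_card_iff_nontrivial, hQcard]
    have hne := P.ne_bot_of_dvd_card h2
    rw [Finite.one_lt_card_iff_nontrivial]
    exact (Subgroup.nontrivial_iff_ne_bot _).mpr hne
  exact index_two_of_surj (QuotientGroup.mk' N) (QuotientGroup.mk'_surjective N) hQp

theorem index_two_of_sylow_cyclic {H : Type*} [Group H] [Finite H] (h2 : 2 ∣ Nat.card H)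
    (P : Sylow 2 H) (hP : IsCyclic P) : ∃ N : Subgroup H, N.index = 2 := by
  have hmin : (Nat.card H).minFac = 2 := (Nat.minFac_eq_two_iff _).mpr h2
  have hc := IsCyclic.isComplement' hmin hP
  exact index_two_of_complement h2 P _ hc

end Index

section Reg

variable {p : ℕ} [Fact p.Prime] {V : Type*} [AddCommGroup V] [Module (ZMod p) V] [Finite V]
  {H : Subgroup (V ≃ₗ[ZMod p] V)}

theorem regLike_of_reg (hreg : Reg H) [Nontrivial V]
    (h3 : ∀ A B : Subgroup H, Nat.card A = 3 → Nat.card B = 3 → A = B) : RegLike H := by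
  refine ⟨fun A hA => isCyclic_of_comm hreg A hA, fun x y hx hy => ?_, h3⟩
  apply Subtype.ext
  apply LinearEquiv.ext
  intro v
  rw [involution_eq_neg hreg x hx, involution_eq_neg hreg y hy]

theorem three_normal {G : Type*} [Group G] [Finite G] (h : RegLike G) (t : G) (ht : orderOf t = 3) :
    (zpowers t).Normal := by
  have hTc : Nat.card (zpowers t) = 3 := by rw [Nat.card_zpowers, ht]
  refine ⟨fun x hx g => ?_⟩
  have h1 : (zpowers t).map (MulAut.conj g).toMonoidHom = zpowers t := by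
    apply h.three _ _ _ hTc
    rw [Nat.card_congr ((zpowers t).equivMapOfInjective (MulAut.conj g).toMonoidHom
      (MulEquiv.injective _)).toEquiv.symm]
    exact hTc
  rw [← h1]
  exact ⟨x, hx, rfl⟩

theorem index_two_of_hI (hreg : Reg H) [Nontrivial V] (hL : RegLike H)
    (hI : ∀ A : Subgroup H, A.Normal → IsCyclic A → ∃ W : Submodule (ZMod p) V, W ≠ ⊥ ∧ W ≠ ⊤ ∧
      ∀ a ∈ A, ∀ v ∈ W, ((a : H) : V ≃ₗ[ZMod p] V) v ∈ W) :
    ∃ N : Subgroup H, N.index = 2 := by
  classical
  haveI : Finite (V ≃ₗ[ZMod p] V) := finite_equiv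
  have hsolv := solvable hL
  haveI : Finite (Subgroup H) := Finite.of_injective (fun K => (K : Set H)) SetLike.coe_injective
  obtain ⟨A, ⟨hAn, hAc⟩, hAm⟩ := (wellFounded_gt (α := Subgroup H)).has_min
    {B : Subgroup H | B.Normal ∧ IsMulCommutative B} ⟨⊥, inferInstance, ⟨⟨fun x y => by
      apply Subtype.ext
      have hx : (x : H) = 1 := Subgroup.mem_bot.mp x.2
      have hy : (y : H) = 1 := Subgroup.mem_bot.mp y.2
      show (x : H) * (y : H) = (y : H) * (x : H)
      rw [hx, hy]⟩⟩⟩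
  have hAmax : ∀ B : Subgroup H, B.Normal → IsMulCommutative B → A ≤ B → B = A := by
    intro B h1 h2 h3
    by_contra hne
    exact hAm B ⟨h1, h2⟩ (lt_of_le_of_ne h3 (Ne.symm hne))
  have hC := not_comm_centralizer hreg hI A hAn hAc hAmax
  haveI := hAn
  obtain ⟨N, ⟨hNn, hNle, hNna⟩, hNm⟩ := (wellFounded_lt (α := Subgroup H)).has_min
    {M : Subgroup H | M.Normal ∧ M ≤ centralizer (A : Set H) ∧ ¬ IsMulCommutative M}
    ⟨centralizer (A : Set H), inferInstance, le_rfl, hC⟩
  have hNmin : ∀ M : Subgroup H, M.Normal → M ≤ N → ¬ IsMulCommutative M → M = N := by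
    intro M h1 h2 h3
    by_contra hne
    exact hNm M ⟨h1, h2.trans hNle, h3⟩ (lt_of_le_of_ne h2 hne)
  obtain ⟨hp2, a, b, haN, hbN, hao, hba, hb2, hcov, ⟨e⟩⟩ :=
    quat_struct hreg hsolv A hAn hAc hAmax N hNn hNle hNna hNmin
  have hV := card_cases_of_struct hreg hp2 hI N hNn a b haN hbN hao hba hb2 hcov e
  have hcardH := card_add_one hreg
  have hH3 : 3 ∣ Nat.card H := by
    rcases hV with h | h | h | h <;> rw [h] at hcardH <;> omega
  have hH9 : ¬ 9 ∣ Nat.card H := by
    rcases hV with h | h | h | h <;> rw [h] at hcardH <;> omega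
  haveI : Fact (Nat.Prime 3) := ⟨Nat.prime_three⟩
  obtain ⟨t, ht⟩ := exists_prime_orderOf_dvd_card' (G := H) 3 hH3
  haveI hTn := three_normal hL t ht
  haveI := hNn
  have hNcard : Nat.card N = 8 := by
    rw [Nat.card_congr e.toEquiv, Nat.card_eq_fintype_card]
    rw [QuaternionGroup.card]
  let ψ : H →* MulAut N := MulAut.conjNormal
  have htker : t ∈ ψ.ker := by
    rw [MonoidHom.mem_ker]
    refine MulEquiv.ext fun n => Subtype.ext ?_
    show t * n * t⁻¹ = n
    let x : H := t * n * t⁻¹ * (n : H)⁻¹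
    have hxN : x ∈ N := mul_mem (hNn.conj_mem _ n.2 t) (inv_mem n.2)
    have hxT : x ∈ zpowers t := by
      have e1 : x = t * ((n : H) * t⁻¹ * (n : H)⁻¹) := by
        simp only [x]
        group
      rw [e1]
      exact mul_mem (mem_zpowers t) (hTn.conj_mem _ (inv_mem (mem_zpowers t)) _)
    have h1 : orderOf x ∣ 8 := by
      have := orderOf_dvd_natCard (⟨x, hxN⟩ : N)
      rwa [Subgroup.orderOf_mk, hNcard] at this
    have h2 : orderOf x ∣ 3 := by
      have := orderOf_dvd_natCard (⟨x, hxT⟩ : zpowers t)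
      rwa [Subgroup.orderOf_mk, Nat.card_zpowers, ht] at this
    have h3 : orderOf x = 1 := Nat.Coprime.eq_one_of_dvd
      (Nat.Coprime.coprime_dvd_left h1 (by norm_num)) h2
    have h4 : x = 1 := orderOf_eq_one_iff.mp h3
    exact mul_inv_eq_one.mp h4
  have hkerdvd : 3 ∣ Nat.card ψ.ker := by
    have := orderOf_dvd_natCard (⟨t, htker⟩ : ψ.ker)
    rwa [Subgroup.orderOf_mk, ht] at this
  have hcardm : Nat.card H = Nat.card ψ.ker * Nat.card ψ.range := by
    have h := ψ.ker.card_mul_index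
    rw [Subgroup.index_ker] at h
    exact h.symm
  have hm24 : Nat.card ψ.range ∣ 24 := by
    have h1 : Nat.card ψ.range ∣ Nat.card (MulAut N) := Subgroup.card_subgroup_dvd_card _
    rw [Nat.card_congr (MulAut.congr e).toEquiv] at h1
    exact h1.trans card_mulAut_dvd
  have hm3 : ¬ 3 ∣ Nat.card ψ.range := by
    intro h3
    apply hH9
    rw [hcardm]
    exact mul_dvd_mul hkerdvd h3
  have hm8 : Nat.card ψ.range ∣ 2 ^ 3 := by
    have h1 : Nat.Coprime (Nat.card ψ.range) 3 := by
      rw [Nat.coprime_comm, Nat.Prime.coprime_iff_not_dvd Nat.prime_three]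
      exact hm3
    have h2 : (24 : ℕ) = 3 * 2 ^ 3 := by norm_num
    rw [h2] at hm24
    exact h1.dvd_of_dvd_mul_left hm24
  obtain ⟨k, -, hk⟩ := (Nat.dvd_prime_pow Nat.prime_two).mp hm8
  have hP : IsPGroup 2 ψ.range := IsPGroup.of_card hk
  haveI hnt : Nontrivial ψ.range := by
    by_contra hn
    rw [not_nontrivial_iff_subsingleton] at hn
    apply hNna
    refine ⟨⟨fun x y => Subtype.ext ?_⟩⟩
    have h1 : ψ x = 1 := by
      have h2 : ψ.rangeRestrict x = 1 := Subsingleton.elim _ _
      exact congrArg Subtype.val h2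
    have h2 := DFunLike.congr_fun h1 y
    have h3 : (x : H) * y * (x : H)⁻¹ = y := congrArg Subtype.val h2
    show (x : H) * y = y * x
    calc (x : H) * y = ((x : H) * y * (x : H)⁻¹) * x := by group
      _ = y * x := by rw [h3]
  exact index_two_of_surj ψ.rangeRestrict ψ.rangeRestrict_surjective hP

theorem index_two_of_irr (hreg : Reg H) [Nontrivial V] (hL : RegLike H) (h2 : 2 ∣ Nat.card H)
    (A : Subgroup H) (hAn : A.Normal) (hAc : IsCyclic A)
    (hW : ∀ W : Submodule (ZMod p) V, W ≠ ⊥ → (∀ a ∈ A, ∀ v ∈ W, ((a : H) : V ≃ₗ[ZMod p] V) v ∈ W) → W = ⊤) :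
    ∃ N : Subgroup H, N.index = 2 := by
  classical
  haveI : Finite (V ≃ₗ[ZMod p] V) := finite_equiv
  haveI := hAn
  haveI : Fact (Nat.Prime 2) := ⟨Nat.prime_two⟩
  let f : H →* (ZMod (Nat.card A))ˣ :=
    (IsCyclic.mulAutMulEquiv A).toMonoidHom.comp MulAut.conjNormal
  have hker : ∀ x : H, f x = 1 → ∀ a ∈ A, x * a = a * x := by
    intro x hx a ha
    have h1 : (MulAut.conjNormal x : MulAut A) = 1 := by
      apply (IsCyclic.mulAutMulEquiv A).injective
      rw [map_one]
      exact hx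
    have h3 := DFunLike.congr_fun h1 ⟨a, ha⟩
    have h4 : x * a * x⁻¹ = a := congrArg Subtype.val h3
    calc x * a = (x * a * x⁻¹) * x := by group
      _ = a * x := by rw [h4]
  -- the enveloping algebra
  let ρ : A → Module.End (ZMod p) V := fun a => (((a : H) : V ≃ₗ[ZMod p] V) : V →ₗ[ZMod p] V)
  let S : Set (Module.End (ZMod p) V) := Set.range ρ
  let R : Subalgebra (ZMod p) (Module.End (ZMod p) V) := Algebra.adjoin (ZMod p) S
  have hρmul : ∀ x y : A, ρ x * ρ y = ρ (x * y) := fun _ _ => rfl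
  have hScomm : ∀ x ∈ S, ∀ y ∈ S, x * y = y * x := by
    rintro _ ⟨x, rfl⟩ _ ⟨y, rfl⟩
    letI := hAc.commGroup
    rw [hρmul, hρmul, mul_comm]
  have h1 : R ≤ Subalgebra.centralizer (ZMod p) S := Algebra.adjoin_le
    (fun x hx => (Subalgebra.mem_centralizer_iff _).2 fun y hy => hScomm y hy x hx)
  have h3 : R ≤ Subalgebra.centralizer (ZMod p) (R : Set (Module.End (ZMod p) V)) := Algebra.adjoin_le
    (fun x hx => (Subalgebra.mem_centralizer_iff _).2 fun r hr =>
      ((Subalgebra.mem_centralizer_iff _).1 (h1 hr) x hx).symm)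
  have hRcomm : ∀ r ∈ R, ∀ s ∈ R, r * s = s * r := fun r hr s hs =>
    (Subalgebra.mem_centralizer_iff _).1 (h3 hs) r hr
  have hCcomm : ∀ c : H, f c = 1 → ∀ r ∈ R,
      r * (((c : H) : V ≃ₗ[ZMod p] V) : V →ₗ[ZMod p] V) =
        (((c : H) : V ≃ₗ[ZMod p] V) : V →ₗ[ZMod p] V) * r := by
    intro c hc r hr
    have h4 : R ≤ Subalgebra.centralizer (ZMod p)
        ({(((c : H) : V ≃ₗ[ZMod p] V) : V →ₗ[ZMod p] V)} : Set (Module.End (ZMod p) V)) := by
      apply Algebra.adjoin_le
      rintro _ ⟨a, rfl⟩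
      rw [SetLike.mem_coe, Subalgebra.mem_centralizer_iff]
      intro g hg
      rw [Set.mem_singleton_iff.mp hg]
      have h5 := hker c hc a a.2
      have h6 : ((c * a : H) : V ≃ₗ[ZMod p] V) = ((a * c : H) : V ≃ₗ[ZMod p] V) := by rw [h5]
      apply LinearMap.ext
      intro v
      exact LinearEquiv.congr_fun h6 v
    exact ((Subalgebra.mem_centralizer_iff _).1 (h4 hr) _ rfl).symm
  obtain ⟨v₀, hv₀⟩ := exists_ne (0 : V)
  let W : Submodule (ZMod p) V := (Subalgebra.toSubmodule R).map (LinearMap.applyₗ v₀)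
  have hWmem : ∀ v, v ∈ W ↔ ∃ r ∈ R, r v₀ = v := by
    intro v
    constructor
    · rintro ⟨r, hr, rfl⟩
      exact ⟨r, hr, rfl⟩
    · rintro ⟨r, hr, rfl⟩
      exact ⟨r, hr, rfl⟩
  have hWtop : W = ⊤ := by
    apply hW
    · intro h0
      have : v₀ ∈ W := (hWmem v₀).2 ⟨1, one_mem _, rfl⟩
      rw [h0] at this
      exact hv₀ (Submodule.mem_bot _ |>.mp this)
    · intro a ha v hv
      obtain ⟨r, hr, rfl⟩ := (hWmem v).1 hv
      refine (hWmem _).2 ⟨ρ ⟨a, ha⟩ * r, mul_mem (Algebra.subset_adjoin ⟨_, rfl⟩) hr, rfl⟩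
  have hrep : ∀ v, ∃ r ∈ R, r v₀ = v := fun v => (hWmem v).1 (by rw [hWtop]; trivial)
  have hcomm : ∀ c₁ c₂ : H, f c₁ = 1 → f c₂ = 1 → c₁ * c₂ = c₂ * c₁ := by
    intro c₁ c₂ h₁ h₂
    obtain ⟨r, hr, hr1⟩ := hrep ((c₁ : V ≃ₗ[ZMod p] V) v₀)
    obtain ⟨s, hs, hs1⟩ := hrep ((c₂ : V ≃ₗ[ZMod p] V) v₀)
    have e1 : (c₁ : V ≃ₗ[ZMod p] V) (s v₀) = s ((c₁ : V ≃ₗ[ZMod p] V) v₀) := by
      have := hCcomm c₁ h₁ s hs
      exact (LinearMap.congr_fun this v₀).symm
    have e2 : (c₂ : V ≃ₗ[ZMod p] V) (r v₀) = r ((c₂ : V ≃ₗ[ZMod p] V) v₀) := by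
      have := hCcomm c₂ h₂ r hr
      exact (LinearMap.congr_fun this v₀).symm
    have e3 : ((c₁ * c₂ : H) : V ≃ₗ[ZMod p] V) v₀ = ((c₂ * c₁ : H) : V ≃ₗ[ZMod p] V) v₀ := by
      show (c₁ : V ≃ₗ[ZMod p] V) ((c₂ : V ≃ₗ[ZMod p] V) v₀) =
        (c₂ : V ≃ₗ[ZMod p] V) ((c₁ : V ≃ₗ[ZMod p] V) v₀)
      rw [← hs1, ← hr1, e1, e2, ← hr1, ← hs1]
      show (s * r) v₀ = (r * s) v₀
      rw [hRcomm s hs r hr]
    have hne : ((c₂ * c₁ : H) : V ≃ₗ[ZMod p] V) v₀ ≠ 0 := by
      intro h0
      exact hv₀ ((LinearEquiv.map_eq_zero_iff _).mp h0)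
    exact (hreg v₀ _ hv₀ hne).unique e3 rfl
  by_cases hQ : 2 ∣ Nat.card f.range
  · obtain ⟨K, hK⟩ := index_two_of_comm hQ
    refine ⟨K.comap f.rangeRestrict, ?_⟩
    rw [Subgroup.index_comap_of_surjective K f.rangeRestrict_surjective, hK]
  · let P : Sylow 2 H := default
    have hP : ∀ x ∈ (P : Subgroup H), f x = 1 := by
      intro x hx
      obtain ⟨k, hk⟩ := P.isPGroup' ⟨x, hx⟩
      have h4 : (f.rangeRestrict x) ^ 2 ^ k = 1 := by
        rw [← map_pow]
        have : x ^ 2 ^ k = 1 := congrArg Subtype.val hk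
        rw [this, map_one]
      have h5 : orderOf (f.rangeRestrict x) ∣ 2 ^ k := orderOf_dvd_of_pow_eq_one h4
      have h6 : orderOf (f.rangeRestrict x) ∣ Nat.card f.range := orderOf_dvd_natCard _
      have h7 : Nat.Coprime (Nat.card f.range) 2 := by
        rw [Nat.coprime_comm, Nat.Prime.coprime_iff_not_dvd Nat.prime_two]
        exact hQ
      have h8 : orderOf (f.rangeRestrict x) = 1 := Nat.Coprime.eq_one_of_dvd
        (Nat.Coprime.coprime_dvd_left h6 (Nat.Coprime.pow_right k h7)) h5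
      have h9 := orderOf_eq_one_iff.mp h8
      exact congrArg Subtype.val h9
    have hPc : IsCyclic P := by
      apply hL.cyc
      refine ⟨⟨fun x y => Subtype.ext ?_⟩⟩
      exact hcomm _ _ (hP _ x.2) (hP _ y.2)
    exact index_two_of_sylow_cyclic h2 P hPc

/-- A regular linear group of odd characteristic with at most one subgroup of order three has
a subgroup of index two. -/
theorem exists_index_two (hreg : Reg H) [Nontrivial V] (hp2 : p ≠ 2)
    (h3 : ∀ A B : Subgroup H, Nat.card A = 3 → Nat.card B = 3 → A = B) :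
    ∃ N : Subgroup H, N.index = 2 := by
  classical
  have hL := regLike_of_reg hreg h3
  have h2 : 2 ∣ Nat.card H := by
    have h4 := card_add_one hreg
    haveI : Fintype V := Fintype.ofFinite _
    have h5 := Module.card_eq_pow_finrank (K := ZMod p) (V := V)
    rw [ZMod.card] at h5
    have h6 : Odd (Nat.card V) := by
      rw [Nat.card_eq_fintype_card, h5]
      apply Odd.pow
      exact (Fact.out : p.Prime).odd_of_ne_two hp2
    rcases h6 with ⟨k, hk⟩
    omega
  by_cases hI : ∀ A : Subgroup H, A.Normal → IsCyclic A → ∃ W : Submodule (ZMod p) V, W ≠ ⊥ ∧ W ≠ ⊤ ∧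
      ∀ a ∈ A, ∀ v ∈ W, ((a : H) : V ≃ₗ[ZMod p] V) v ∈ W
  · exact index_two_of_hI hreg hL hI
  · push Not at hI
    obtain ⟨A, hAn, hAc, hW⟩ := hI
    apply index_two_of_irr hreg hL h2 A hAn hAc
    intro W h0 hinv
    by_contra hne
    obtain ⟨a, ha, v, hv, hnv⟩ := hW W h0 hne
    exact hnv (hinv a ha v hv)

end Reg

end Cfsg.Agent.Lib.Perm.RegIdx
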