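import Mathlib
import Cfsg.Prelude.Def_Perm
import Cfsg.Agent.Lib.Perm.RegIdx
import Cfsg.Agent.Lib.Perm.SharpThree
import Cfsg.Agent.Lib.Perm.ZassSwap

/-!
Sharply triply transitive groups of even degree: the near-field setup, index two subgroups of the
two-point stabiliser.
-/

set_option autoImplicit false
set_option linter.style.haveILetI false

namespace Cfsg.Agent.Lib.Perm.SharpEven

open Cfsg.Agent.Lib.Perm.RegLin Cfsg.Agent.Lib.Perm.ST Cfsg.Agent.Lib.Perm.RegIdx

section NF

variable {X : Type*} [nf : Cfsg.NearField X] [Finite X]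

/-- An anti-homomorphism onto the non-zero elements of a near-field with at most one subgroup of
order three gives a subgroup of index two. -/
theorem index_two_of_antihom {Γ : Type*} [Group Γ] [Finite Γ] (r : Γ → X)
    (hr1 : r 1 = 1) (hrmul : ∀ x y, r (x * y) = r y * r x) (hrne : ∀ x, r x ≠ 0)
    (hrinj : Function.Injective r) (hrsurj : ∀ c : X, c ≠ 0 → ∃ x, r x = c)
    (h3 : ∀ A B : Subgroup Γ, Nat.card A = 3 → Nat.card B = 3 → A = B)
    (hodd : Odd (Nat.card X)) : ∃ N : Subgroup Γ, N.index = 2 := by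
  classical
  obtain ⟨p, j, hp, hj, hcard, hadd, hpx⟩ := nearField_finite_structure (F := X)
  haveI : Fact p.Prime := ⟨hp⟩
  have hp2 : p ≠ 2 := by
    rintro rfl
    rw [hcard] at hodd
    have : Even (2 ^ j) := (even_two).pow_of_ne_zero (by omega)
    exact (Nat.not_even_iff_odd.mpr hodd) this
  letI iAC : AddCommGroup X := { nf.toAddGroup with add_comm := hadd }
  haveI iM : Module (ZMod p) X := AddCommGroup.zmodModule hpx
  haveI : Nontrivial X := ⟨⟨0, 1, Cfsg.NearField.zero_ne_one⟩⟩
  -- right multiplication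
  have hinv : ∀ γ : Γ, r γ * r γ⁻¹ = 1 := by
    intro γ
    rw [← hrmul, inv_mul_cancel, hr1]
  let rm : Γ → (X →ₗ[ZMod p] X) := fun γ =>
    (({ toFun := fun v => v * r γ
        map_zero' := nf_zero_mul _
        map_add' := fun u v => Cfsg.NearField.right_distrib u v (r γ) } : X →+ X)).toZModLinearMap p
  have hrm : ∀ (γ : Γ) (v : X), rm γ v = v * r γ := fun _ _ => rfl
  have hrmmul : ∀ (x y : Γ) (v : X), rm (x * y) v = rm x (rm y v) := by
    intro x y v
    rw [hrm, hrm, hrm, hrmul, mul_assoc]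
  have hrmone : ∀ v : X, rm 1 v = v := by
    intro v
    rw [hrm, hr1, mul_one]
  let ρ : Γ →* (X ≃ₗ[ZMod p] X) :=
    { toFun := fun γ => LinearEquiv.ofLinear (rm γ) (rm γ⁻¹)
        (by
          ext v
          show rm γ (rm γ⁻¹ v) = v
          rw [← hrmmul, mul_inv_cancel, hrmone])
        (by
          ext v
          show rm γ⁻¹ (rm γ v) = v
          rw [← hrmmul, inv_mul_cancel, hrmone])
      map_one' := by
        ext v
        exact hrmone v
      map_mul' := fun x y => by
        ext v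
        exact hrmmul x y v }
  have hρ : ∀ (γ : Γ) (v : X), ρ γ v = v * r γ := fun _ _ => rfl
  have hρinj : Function.Injective ρ := by
    intro x y hxy
    apply hrinj
    have h1 := LinearEquiv.congr_fun hxy (1 : X)
    rw [hρ, hρ, one_mul, one_mul] at h1
    exact h1
  let e : Γ ≃* ρ.range := MonoidHom.ofInjective hρinj
  have hreg : Reg ρ.range := by
    intro v w hv hw
    obtain ⟨v', h1, h2⟩ := Cfsg.NearField.exists_inv v hv
    have hne : v' * w ≠ 0 := by
      apply nf_mul_ne_zero _ hw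
      rintro rfl
      rw [nf_zero_mul] at h2
      exact Cfsg.NearField.zero_ne_one h2
    obtain ⟨γ, hγ⟩ := hrsurj _ hne
    refine ⟨e γ, ?_, ?_⟩
    · show ρ γ v = w
      rw [hρ, hγ, ← mul_assoc, h1, one_mul]
    · rintro ⟨_, δ, rfl⟩ hy
      have hy' : v * r δ = w := hy
      have h4 : r δ = r γ := by
        rw [hγ, ← hy', ← mul_assoc, h2, one_mul]
      have h5 : δ = γ := hrinj h4
      subst h5
      rfl
  obtain ⟨N', hN'⟩ := exists_index_two hreg hp2 (by
    intro A B hA hB
    have h1 : A.map e.symm.toMonoidHom = B.map e.symm.toMonoidHom := by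
      apply h3
      · rw [Nat.card_congr (A.equivMapOfInjective e.symm.toMonoidHom e.symm.injective).toEquiv.symm]
        exact hA
      · rw [Nat.card_congr (B.equivMapOfInjective e.symm.toMonoidHom e.symm.injective).toEquiv.symm]
        exact hB
    exact Subgroup.map_injective e.symm.injective h1)
  refine ⟨N'.comap e.toMonoidHom, ?_⟩
  rw [Subgroup.index_comap_of_surjective N' (f := e.toMonoidHom) e.surjective, hN']

end NF

/-- A subgroup of index two can be chosen stable under an involutive automorphism. -/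
theorem stable_index_two {H : Type*} [Group H] [Finite H] (σ : H →* H) (hσ : ∀ x, σ (σ x) = x)
    (N₀ : Subgroup H) (hN₀ : N₀.index = 2) : ∃ N : Subgroup H, N.index = 2 ∧ ∀ x ∈ N, σ x ∈ N := by
  classical
  let Z := Multiplicative (ZMod 2)
  let E := H →* Z
  haveI : Finite E := Finite.of_injective (fun f : E => (f : H → Z)) DFunLike.coe_injective
  haveI : Fintype E := Fintype.ofFinite _
  have hZ : ∀ z : Z, z * z = 1 := by decide
  let o : Z := Multiplicative.ofAdd (1 : ZMod 2)
  have ho : o ≠ 1 := by decide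
  -- the character attached to `N₀`
  let f₀ : E :=
    { toFun := fun x => if x ∈ N₀ then 1 else o
      map_one' := by simp
      map_mul' := fun x y => by
        have h1 := Subgroup.mul_mem_iff_of_index_two hN₀ (a := x) (b := y)
        by_cases hx : x ∈ N₀ <;> by_cases hy : y ∈ N₀ <;> simp [hx, hy, h1, hZ, o] <;> decide }
  have hf₀ : f₀ ≠ 1 := by
    intro h
    apply (Subgroup.index_ne_zero_of_finite (H := N₀)) |> fun _ => ?_
    have : N₀ = ⊤ := by
      rw [eq_top_iff]
      intro x _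
      by_contra hx
      have h2 := DFunLike.congr_fun h x
      have h3 : (if x ∈ N₀ then 1 else o) = 1 := h2
      rw [if_neg hx] at h3
      exact ho h3
    rw [this, Subgroup.index_top] at hN₀
    omega
  have hsq : f₀ ^ 2 = 1 := by
    apply MonoidHom.ext
    intro x
    show f₀ x ^ 2 = 1
    rw [pow_two, hZ]
  have h2 : 2 ∣ Fintype.card E := by
    have h3 : orderOf f₀ = 2 := orderOf_eq_prime hsq hf₀
    rw [← h3, ← Nat.card_eq_fintype_card]
    exact orderOf_dvd_natCard f₀
  let T : E → E := fun f => f.comp σ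
  have hT : ∀ f, T (T f) = f := by
    intro f
    ext x
    show f (σ (σ x)) = f x
    rw [hσ]
  have hpar := Cfsg.Agent.Lib.Perm.fix_parity T hT
  have heven : 2 ∣ Nat.card {f // T f = f} := by
    have h3 : Fintype.card E % 2 = Nat.card {f // T f = f} % 2 := hpar
    omega
  let one' : {f // T f = f} := ⟨1, rfl⟩
  have hcard : 1 < Nat.card {f // T f = f} := by
    have h3 : 0 < Nat.card {f // T f = f} := by
      haveI : Nonempty {f // T f = f} := ⟨one'⟩
      exact Nat.card_pos
    omega
  haveI : Nontrivial {f // T f = f} := Finite.one_lt_card_iff_nontrivial.mp hcard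
  obtain ⟨⟨f, hfT⟩, hf⟩ := exists_ne one'
  have hf1 : f ≠ 1 := fun h => hf (Subtype.ext h)
  refine ⟨f.ker, ?_, ?_⟩
  · rw [Subgroup.index_ker]
    have h3 : Nat.card f.range ∣ Nat.card Z := Subgroup.card_subgroup_dvd_card _
    have h4 : Nat.card Z = 2 := by
      rw [Nat.card_eq_fintype_card]
      rfl
    rw [h4] at h3
    have h5 := (Nat.dvd_prime Nat.prime_two).mp h3
    rcases h5 with h5 | h5
    · exfalso
      apply hf1
      have h6 : f.range = ⊥ := Subgroup.eq_bot_of_card_eq _ h5
      exact MonoidHom.range_eq_bot_iff.mp h6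
    · exact h5
  · intro x hx
    rw [MonoidHom.mem_ker] at hx ⊢
    have h3 := DFunLike.congr_fun hfT x
    have h4 : f (σ x) = f x := h3
    rw [h4, hx]

section Main

variable {α : Type*} [Fintype α] [DecidableEq α] {G : Subgroup (Equiv.Perm α)} {inf : α}

/-- The near-field on the complement of a point. -/
theorem exists_nearField_setup
    (hT : ∀ a b c a' b' c' : α, a ≠ b → a ≠ c → b ≠ c → a' ≠ b' → a' ≠ c' → b' ≠ c' →
      ∃ g ∈ G, g a = a' ∧ g b = b' ∧ g c = c')
    (hS : ∀ g ∈ G, ∀ a b c : α, a ≠ b → a ≠ c → b ≠ c → g a = a → g b = b → g c = c → g = 1)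
    (h3 : 3 ≤ Fintype.card α) :
    ∃ _ : Cfsg.NearField {x : α // x ≠ inf},
      (∀ g ∈ G, g inf = inf → ∃ a b : {x : α // x ≠ inf}, a ≠ 0 ∧
        ∀ x : {x : α // x ≠ inf}, g x = ((x * a + b : {x : α // x ≠ inf}) : α)) ∧
      (∀ a b : {x : α // x ≠ inf}, a ≠ 0 → ∃ g ∈ G, g inf = inf ∧
        ∀ x : {x : α // x ≠ inf}, g x = ((x * a + b : {x : α // x ≠ inf}) : α)) := by
  classical
  have hcardX : Fintype.card {x : α // x ≠ inf} + 1 = Fintype.card α := by
    have := Fintype.card_congr (Equiv.optionSubtypeNe inf)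
    rwa [Fintype.card_option] at this
  have hT2 : ∀ a b c d : {x : α // x ≠ inf}, a ≠ b → c ≠ d →
      ∃ g : resH G inf, g • a = c ∧ g • b = d := by
    intro a b c d hab hcd
    obtain ⟨g, hg, h1, h2, h3⟩ := hT inf a b inf c d a.2.symm b.2.symm
      (fun h => hab (Subtype.ext h)) c.2.symm d.2.symm (fun h => hcd (Subtype.ext h))
    obtain ⟨σ, hσ, hσx⟩ := mem_resH hg h1
    exact ⟨⟨σ, hσ⟩, Subtype.ext ((hσx a).trans h2), Subtype.ext ((hσx b).trans h3)⟩
  have hS2 : ∀ (g : resH G inf) (a b : {x : α // x ≠ inf}), a ≠ b → g • a = a → g • b = b → g = 1 := by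
    rintro ⟨σ, g, hg, h1, h2⟩ a b hab ha hb
    have h3 : g = 1 := hS g hg inf a b a.2.symm b.2.symm (fun h => hab (Subtype.ext h)) h1
      (by rw [← h2 a]; exact congrArg Subtype.val ha)
      (by rw [← h2 b]; exact congrArg Subtype.val hb)
    apply Subtype.ext
    ext x
    show ((σ x : {x : α // x ≠ inf}) : α) = x
    rw [h2, h3]
    rfl
  have h2X : 2 ≤ Nat.card {x : α // x ≠ inf} := by
    rw [Nat.card_eq_fintype_card]
    omega
  obtain ⟨nf, hnf⟩ := exists_nearField_perm (resH G inf) hT2 hS2 h2X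
  refine ⟨nf, ?_, ?_⟩
  · intro g hg h1
    obtain ⟨σ, hσ, hσx⟩ := mem_resH hg h1
    obtain ⟨a, b, ha, hab⟩ := (hnf σ).1 hσ
    exact ⟨a, b, ha, fun x => by rw [← hσx, hab]⟩
  · intro a b ha
    obtain ⟨a', h1, h2⟩ := Cfsg.NearField.exists_inv a ha
    obtain ⟨g, hg, hg1, hg2⟩ : affPerm a a' b h1 h2 ∈ resH G inf :=
      (hnf _).2 ⟨a, b, ha, fun _ => rfl⟩
    exact ⟨g, hg, hg1, fun x => (hg2 x).symm⟩

/-- In the near-field coordinates the two-point stabiliser acts by right multiplications after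
moving the second point to the origin. -/
theorem exists_index_two_stabilizer {a b : α} (hab : a ≠ b) (G : Subgroup (Equiv.Perm α))
    [nf : Cfsg.NearField {x : α // x ≠ a}]
    (hA : ∀ g ∈ G, g a = a → ∃ c d : {x : α // x ≠ a}, c ≠ 0 ∧
      ∀ x : {x : α // x ≠ a}, g x = ((x * c + d : {x : α // x ≠ a}) : α))
    (hB : ∀ c d : {x : α // x ≠ a}, c ≠ 0 → ∃ g ∈ G, g a = a ∧
      ∀ x : {x : α // x ≠ a}, g x = ((x * c + d : {x : α // x ≠ a}) : α))
    (hodd : Odd (Nat.card {x : α // x ≠ a}))
    (h3 : ∀ A B : Subgroup ↥(MulAction.stabilizer G a ⊓ MulAction.stabilizer G b),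
      Nat.card A = 3 → Nat.card B = 3 → A = B) :
    ∃ N : Subgroup ↥(MulAction.stabilizer G a ⊓ MulAction.stabilizer G b), N.index = 2 := by
  classical
  let b' : {x : α // x ≠ a} := ⟨b, hab.symm⟩
  have hstab : ∀ h : ↥(MulAction.stabilizer G a ⊓ MulAction.stabilizer G b),
      ((h : G) : Equiv.Perm α) a = a ∧ ((h : G) : Equiv.Perm α) b = b := by
    intro h
    exact ⟨h.2.1, h.2.2⟩
  have hr : ∀ h : ↥(MulAction.stabilizer G a ⊓ MulAction.stabilizer G b),
      ∃ c : {x : α // x ≠ a}, ∀ v : {x : α // x ≠ a},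
        ((h : G) : Equiv.Perm α) ((v + b' : {x : α // x ≠ a}) : α) =
          ((v * c + b' : {x : α // x ≠ a}) : α) := by
    intro h
    obtain ⟨c, d, hc, hcd⟩ := hA _ (h : G).2 (hstab h).1
    have h1 : b' * c + d = b' := by
      apply Subtype.ext
      rw [← hcd]
      exact (hstab h).2
    refine ⟨c, fun v => ?_⟩
    rw [hcd, Cfsg.NearField.right_distrib, add_assoc, h1]
  choose r hr1 using hr
  apply index_two_of_antihom r _ _ _ _ _ h3 hodd
  · -- `r 1 = 1`
    have h1 := hr1 1 1
    have h2 : (1 + b' : {x : α // x ≠ a}) = 1 * r 1 + b' := Subtype.ext h1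
    have h4 := add_right_cancel h2
    rw [one_mul] at h4
    exact h4.symm
  · -- anti-multiplicative
    intro x y
    have h1 := hr1 (x * y) 1
    have h2 : (((x * y : ↥(MulAction.stabilizer G a ⊓ MulAction.stabilizer G b)) : G) : Equiv.Perm α)
        ((1 + b' : {x : α // x ≠ a}) : α) = ((x : G) : Equiv.Perm α) (((y : G) : Equiv.Perm α)
        ((1 + b' : {x : α // x ≠ a}) : α)) := rfl
    rw [h2, hr1 y 1, hr1 x] at h1
    have h4 : (1 * r y * r x + b' : {x : α // x ≠ a}) = 1 * r (x * y) + b' := Subtype.ext h1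
    have h5 := add_right_cancel h4
    rw [one_mul, one_mul] at h5
    exact h5.symm
  · -- non-zero
    intro x h0
    have h1 := hr1 x 1
    have h2 := hr1 x 0
    rw [h0] at h1 h2
    rw [Cfsg.NearField.mul_zero] at h1 h2
    have h4 : ((x : G) : Equiv.Perm α) ((1 + b' : {x : α // x ≠ a}) : α) =
        ((x : G) : Equiv.Perm α) ((0 + b' : {x : α // x ≠ a}) : α) := h1.trans h2.symm
    have h5 := ((x : G) : Equiv.Perm α).injective h4
    have h6 : (1 + b' : {x : α // x ≠ a}) = 0 + b' := Subtype.ext h5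
    exact Cfsg.NearField.zero_ne_one (add_right_cancel h6).symm
  · -- injective
    intro x y hxy
    apply Subtype.ext
    apply Subtype.ext
    ext z
    by_cases hz : z = a
    · subst hz
      rw [(hstab x).1, (hstab y).1]
    · let z' : {x : α // x ≠ a} := ⟨z, hz⟩
      let v : {x : α // x ≠ a} := z' + -b'
      have hv : ((v + b' : {x : α // x ≠ a}) : α) = z := by
        have : v + b' = z' := by simp [v]
        rw [this]
      rw [← hv, hr1 x v, hr1 y v, hxy]
  · -- surjective
    intro c hc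
    obtain ⟨g, hg, hg1, hg2⟩ := hB c (-(b' * c) + b') hc
    have hgb : g b = b := by
      have h1 := hg2 b'
      have h2 : b' * c + (-(b' * c) + b') = b' := by simp
      rw [h2] at h1
      exact h1
    refine ⟨⟨⟨g, hg⟩, hg1, hgb⟩, ?_⟩
    have h1 := hr1 ⟨⟨g, hg⟩, hg1, hgb⟩ 1
    have h2 : g ((1 + b' : {x : α // x ≠ a}) : α) = _ := h1
    rw [hg2] at h2
    have h4 : ((1 + b') * c + (-(b' * c) + b') : {x : α // x ≠ a}) =
        1 * r ⟨⟨g, hg⟩, hg1, hgb⟩ + b' := Subtype.ext h2
    rw [Cfsg.NearField.right_distrib, one_mul, one_mul, add_assoc, add_neg_cancel_left] at h4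
    exact (add_right_cancel h4).symm

end Main

end Cfsg.Agent.Lib.Perm.SharpEven
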