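import Mathlib
import Cfsg.Prelude.Def_Perm
import Cfsg.Agent.Lib.Perm.SharpEven
import Cfsg.Agent.Lib.Perm.ZassPSL
import Cfsg.Agent.S0729

/-!
Sharply triply transitive groups of degree `p^f + 1`, `p` odd, `f` odd, are `PGL(2, p^f)`.
-/

set_option autoImplicit false
set_option linter.style.haveILetI false

namespace Cfsg.Agent.Lib.Perm.SharpOdd

/-- An involutive automorphism with at most two fixed points inverts every stable subgroup of
index two. -/
theorem inverts_of_index_two {H : Type*} [Group H] [Finite H] (σ : H →* H) (hσ : ∀ x, σ (σ x) = x)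
    (N : Subgroup H) (hN : N.index = 2) (hst : ∀ x ∈ N, σ x ∈ N)
    (hfix : ∀ x y z, σ x = x → σ y = y → σ z = z → x = y ∨ x = z ∨ y = z) :
    ∀ n ∈ N, σ n = n⁻¹ := by
  classical
  haveI := Fintype.ofFinite H
  let d : H → H := fun z => (σ z)⁻¹ * z
  have hdN : ∀ z, d z ∈ N := by
    intro z
    by_cases hz : z ∈ N
    · exact mul_mem (inv_mem (hst z hz)) hz
    · have h1 : σ z ∉ N := fun h => hz (by have := hst _ h; rwa [hσ] at this)
      have h2 : (σ z)⁻¹ ∉ N := fun h => h1 (by simpa using inv_mem h)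
      show (σ z)⁻¹ * z ∈ N
      rw [Subgroup.mul_mem_iff_of_index_two hN]
      exact ⟨fun h => absurd h h2, fun h => absurd h hz⟩
  have hdinv : ∀ z, σ (d z) = (d z)⁻¹ := by
    intro z
    simp only [d, map_mul, map_inv, hσ, mul_inv_rev, inv_inv]
  have hfibfix : ∀ z z₀, d z = d z₀ → σ (z * z₀⁻¹) = z * z₀⁻¹ := by
    intro z z₀ h
    have h1 : (σ z)⁻¹ * z = (σ z₀)⁻¹ * z₀ := h
    rw [map_mul, map_inv]
    have h2 : z = σ z * ((σ z₀)⁻¹ * z₀) := by
      rw [← h1]
      group
    calc σ z * (σ z₀)⁻¹ = (σ z * ((σ z₀)⁻¹ * z₀)) * z₀⁻¹ := by group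
      _ = z * z₀⁻¹ := by rw [← h2]
  have hfib : ∀ y : H, (Finset.univ.filter (fun z => d z = y)).card ≤ 2 := by
    intro y
    by_contra hcon
    push Not at hcon
    obtain ⟨z₁, h1, z₂, h2, z₃, h3, h12, h13, h23⟩ := Finset.two_lt_card.mp hcon
    simp only [Finset.mem_filter, Finset.mem_univ, true_and] at h1 h2 h3
    have hf := hfix (z₁ * z₁⁻¹) (z₂ * z₁⁻¹) (z₃ * z₁⁻¹) (hfibfix _ _ rfl)
      (hfibfix _ _ (h2.trans h1.symm)) (hfibfix _ _ (h3.trans h1.symm))
    rcases hf with h | h | h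
    · exact h12 (mul_right_cancel h)
    · exact h13 (mul_right_cancel h)
    · exact h23 (mul_right_cancel h)
  have hcount : Fintype.card H ≤ 2 * (Finset.univ.image d).card := by
    have := Finset.card_le_mul_card_image (s := Finset.univ) (f := d) 2 (fun y _ => hfib y)
    simpa [Finset.card_univ] using this
  have hNcard : Nat.card H = 2 * Nat.card N := by
    have h1 := N.card_mul_index
    rw [hN] at h1
    omega
  let NF : Finset H := Finset.univ.filter (fun x => x ∈ N)
  have hNF : NF.card = Nat.card N := by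
    rw [Nat.card_eq_fintype_card, Fintype.card_subtype]
  have himage : Finset.univ.image d = NF := by
    apply Finset.eq_of_subset_of_card_le
    · intro x hx
      obtain ⟨z, -, rfl⟩ := Finset.mem_image.mp hx
      exact Finset.mem_filter.mpr ⟨Finset.mem_univ _, hdN z⟩
    · rw [hNF]
      rw [Nat.card_eq_fintype_card (α := H)] at hNcard
      omega
  intro n hn
  have h1 : n ∈ Finset.univ.image d := by
    rw [himage]
    exact Finset.mem_filter.mpr ⟨Finset.mem_univ _, hn⟩
  obtain ⟨z, -, rfl⟩ := Finset.mem_image.mp h1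
  exact hdinv z

/-- An involutive ring automorphism of a finite field of odd degree is trivial. -/
theorem ring_aut_trivial {K : Type*} [Field K] [Finite K] {p f : ℕ} [hp : Fact p.Prime]
    (hK : Nat.card K = p ^ f) (hf : Odd f) (A : K ≃+* K) (hA : ∀ x, A (A x) = x) : ∀ x, A x = x := by
  classical
  haveI := Fintype.ofFinite K
  obtain ⟨q, hq⟩ := CharP.exists K
  haveI := hq
  obtain ⟨n, hqp, hn⟩ := FiniteField.card K q
  haveI : Fact q.Prime := ⟨hqp⟩
  have hqeq : q = p := by
    have h1 : q ∣ p ^ f := by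
      rw [← hK, Nat.card_eq_fintype_card, hn]
      exact dvd_pow_self q n.ne_zero
    exact (Nat.prime_dvd_prime_iff_eq hqp hp.out).mp (hqp.dvd_of_dvd_pow h1)
  subst hqeq
  letI : Algebra (ZMod q) K := ZMod.algebra K q
  have hfin : Module.finrank (ZMod q) K = f := by
    have h1 := Module.card_eq_pow_finrank (K := ZMod q) (V := K)
    rw [ZMod.card] at h1
    rw [Nat.card_eq_fintype_card, h1] at hK
    exact Nat.pow_right_injective hp.out.two_le hK
  let A' : K ≃ₐ[ZMod q] K := AlgEquiv.ofRingEquiv (f := A) (fun r => by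
    have h1 : (A : K →+* K).comp (algebraMap (ZMod q) K) = algebraMap (ZMod q) K := RingHom.ext_zmod _ _
    exact RingHom.congr_fun h1 r)
  have hcard : Nat.card (K ≃ₐ[ZMod q] K) = f := by
    rw [IsGalois.card_aut_eq_finrank, hfin]
  have h1 : orderOf A' ∣ f := by
    rw [← hcard]
    exact orderOf_dvd_natCard A'
  have h2 : A' ^ 2 = 1 := by
    ext x
    exact hA x
  have h3 : orderOf A' ∣ 2 := orderOf_dvd_of_pow_eq_one h2
  have h4 : orderOf A' = 1 := by
    have h5 : Nat.Coprime f 2 := by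
      exact Nat.coprime_two_right.mpr hf
    exact Nat.Coprime.eq_one_of_dvd (Nat.Coprime.coprime_dvd_left h1 h5) h3
  have h6 : A' = 1 := orderOf_eq_one_iff.mp h4
  intro x
  have := congrArg (fun e : K ≃ₐ[ZMod q] K => e x) h6
  exact this

/-- Elements acting additively normalising an abelian free subgroup of index two of a field of
odd degree centralise it. -/
theorem comm_of_semilinear {A H : Type*} [AddCommGroup A] [Finite A] [Group H] [Finite H] {p f : ℕ}
    (hp : p.Prime) (hA : Nat.card A = p ^ f) (hf : Odd f)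
    (μ : H →* AddMonoid.End A) (N : Subgroup H) (hN : N.index = 2)
    (hNc : ∀ x ∈ N, ∀ y ∈ N, x * y = y * x)
    (hfree : ∀ n ∈ N, ∀ u : A, μ n u = u → n = 1 ∨ u = 0)
    (hcard : Nat.card A = 2 * Nat.card N + 1) :
    ∀ y : H, ∀ n ∈ N, y * n = n * y := by
  classical
  haveI : Fact p.Prime := ⟨hp⟩
  let μ' : N →* AddMonoid.End A := μ.comp N.subtype
  obtain ⟨p', f', K, iF, iT, hp', hf', hK, hpf, κ, ε, hεinj, hκ⟩ :=
    Cfsg.Agent.Lib.Perm.ZP.exists_field_of_free (E := N)
      (fun e g => Subtype.ext (hNc _ e.2 _ g.2)) μ'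
      (fun e u h => (hfree _ e.2 u h).imp_left (fun h1 => Subtype.ext h1)) hcard
  have hKcard : Nat.card K = p ^ f := by
    rw [Nat.card_eq_fintype_card, hK, hpf, hA]
  have hKcard2 : Nat.card K = 2 * Nat.card N + 1 := by rw [hKcard, ← hA, hcard]
  have hNn : N.Normal := Subgroup.normal_of_index_eq_two hN
  intro y
  -- the semilinear map
  have hμinv : ∀ u : A, μ y (μ y⁻¹ u) = u := by
    intro u
    have h1 : (μ y) * (μ y⁻¹) = 1 := by rw [← map_mul, mul_inv_cancel, map_one]
    exact DFunLike.congr_fun h1 u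
  have hμinv' : ∀ u : A, μ y⁻¹ (μ y u) = u := by
    intro u
    have h1 : (μ y⁻¹) * (μ y) = 1 := by rw [← map_mul, inv_mul_cancel, map_one]
    exact DFunLike.congr_fun h1 u
  let T : K →+ K :=
    { toFun := fun k => κ.symm (μ y (κ k))
      map_zero' := by simp
      map_add' := fun a b => by simp }
  have hTκ : ∀ k, κ (T k) = μ y (κ k) := fun k => by simp [T]
  have hTinj : Function.Injective T := by
    intro a b hab
    have h1 : μ y (κ a) = μ y (κ b) := by rw [← hTκ, ← hTκ, hab]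
    have h2 : κ a = κ b := by rw [← hμinv' (κ a), ← hμinv' (κ b), h1]
    exact κ.injective h2
  let e' : N → N := fun n => ⟨y * n * y⁻¹, hNn.conj_mem _ n.2 y⟩
  have hT : ∀ (n : N) (k : K), T ((ε n : K) * k) = (ε (e' n) : K) * T k := by
    intro n k
    apply κ.injective
    rw [hκ, hTκ, hκ, hTκ]
    show μ y (μ n (κ k)) = μ (y * n * y⁻¹) (μ y (κ k))
    have h1 : μ (y * n * y⁻¹) * μ y = μ y * μ n := by
      rw [← map_mul, ← map_mul]
      congr 1
      group
    exact (DFunLike.congr_fun h1 (κ k)).symm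
  have hT1 : T 1 ≠ 0 := by
    intro h0
    have h1 : T 1 = T 0 := by rw [h0, map_zero]
    exact one_ne_zero (hTinj h1)
  set g : K := T 1 with hg
  let B : K →+ K := (AddMonoidHom.mulLeft g⁻¹).comp T
  have hB : ∀ k, B k = g⁻¹ * T k := fun _ => rfl
  have hTB : ∀ k, T k = g * B k := by
    intro k
    rw [hB, mul_inv_cancel_left₀ hT1]
  have hB1 : B 1 = 1 := by
    rw [hB, ← hg, inv_mul_cancel₀ hT1]
  have hBmul0 : ∀ (n : N) (k : K), B ((ε n : K) * k) = (ε (e' n) : K) * B k := by
    intro n k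
    rw [hB, hT, hB]
    ring
  have hBε : ∀ n : N, B (ε n : K) = (ε (e' n) : K) := by
    intro n
    have := hBmul0 n 1
    rwa [mul_one, hB1, mul_one] at this
  -- the span of the image
  let R : Set K := Set.range (fun n : N => (ε n : K))
  have hspan : AddSubgroup.closure R = ⊤ := by
    set W := AddSubgroup.closure R with hW
    have hge : Nat.card N + 1 ≤ Nat.card W := by
      rw [← Finite.card_option]
      apply Nat.card_le_card_of_injective (fun o : Option N => match o with
        | Option.none => (⟨0, W.zero_mem⟩ : W)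
        | Option.some n => ⟨(ε n : K), AddSubgroup.subset_closure ⟨n, rfl⟩⟩)
      rintro (_ | a) (_ | b) hab
      · rfl
      · exfalso
        have h1 : (0 : K) = (ε b : K) := congrArg Subtype.val hab
        exact (ε b).ne_zero h1.symm
      · exfalso
        have h1 : (ε a : K) = (0 : K) := congrArg Subtype.val hab
        exact (ε a).ne_zero h1
      · have h1 : (ε a : K) = (ε b : K) := congrArg Subtype.val hab
        rw [hεinj (Units.ext h1)]
    obtain ⟨c, hc⟩ := AddSubgroup.card_addSubgroup_dvd_card W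
    rw [hKcard2] at hc
    have hc1 : c = 1 := by
      rcases c with _ | _ | c
      · omega
      · rfl
      · exfalso
        have : 2 * Nat.card W ≤ Nat.card W * (c + 1 + 1) := by nlinarith
        omega
    rw [hc1, mul_one] at hc
    apply AddSubgroup.eq_top_of_card_eq
    omega
  have hBmul : ∀ x k : K, B (x * k) = B x * B k := by
    intro x k
    have hx : x ∈ AddSubgroup.closure R := by rw [hspan]; trivial
    induction hx using AddSubgroup.closure_induction with
    | mem x hx =>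
      obtain ⟨n, rfl⟩ := hx
      rw [hBmul0, hBε]
    | zero => simp
    | add a b _ _ h1 h2 => rw [add_mul, map_add, map_add, add_mul, h1, h2]
    | neg a _ h1 => rw [neg_mul, map_neg, map_neg, neg_mul, h1]
  have hBinj : Function.Injective B := by
    intro a b hab
    rw [hB, hB] at hab
    exact hTinj (mul_left_cancel₀ (inv_ne_zero hT1) hab)
  have hBbij : Function.Bijective B := Finite.injective_iff_bijective.mp hBinj
  let Br : K ≃+* K := RingEquiv.ofBijective
    ({ toFun := B, map_one' := hB1, map_mul' := hBmul, map_zero' := map_zero B, map_add' := map_add B } : K →+* K) hBbij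
  have hBr : ∀ k, Br k = B k := fun _ => rfl
  -- the square
  have hyN : y ^ 2 ∈ N := Subgroup.sq_mem_of_index_two hN y
  set z : K := (ε ⟨y ^ 2, hyN⟩ : K) with hz
  have hz0 : z ≠ 0 := (ε _).ne_zero
  have hTT : ∀ k, T (T k) = z * k := by
    intro k
    apply κ.injective
    rw [hTκ, hTκ, hz, hκ]
    show μ y (μ y (κ k)) = μ (y ^ 2) (κ k)
    rw [sq, map_mul]
    rfl
  have hBB : ∀ k, B (B k) = k := by
    intro k
    have h1 : T (T k) = g * (B g * B (B k)) := by
      rw [hTB k, hTB (g * B k), hBmul]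
    have h2 : z = g * B g := by
      have h3 := hTT 1
      rw [mul_one] at h3
      rw [← h3]
      exact hTB g
    have h5 := hTT k
    rw [h1, h2] at h5
    have h6 : g * B g ≠ 0 := by
      rw [← h2]
      exact hz0
    rw [← mul_assoc] at h5
    exact mul_left_cancel₀ h6 h5
  have hid := ring_aut_trivial hKcard hf Br (fun x => by rw [hBr, hBr]; exact hBB x)
  intro n hn
  have h1 := hid (ε ⟨n, hn⟩ : K)
  rw [hBr, hBε] at h1
  have h2 : e' ⟨n, hn⟩ = ⟨n, hn⟩ := hεinj (Units.ext h1)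
  have h3 : y * n * y⁻¹ = n := congrArg Subtype.val h2
  calc y * n = (y * n * y⁻¹) * y := by group
    _ = n * y := by rw [h3]

/-- Near-field form of the centralising theorem. -/
theorem comm_of_near {X H : Type*} [nf : Cfsg.NearField X] [Finite X] [Group H] [Finite H] {p f : ℕ}
    (hp : p.Prime) (hX : Nat.card X = p ^ f) (hf : Odd f) (hadd : ∀ x y : X, x + y = y + x)
    (a : H → X → X) (ha1 : ∀ v, a 1 v = v) (hamul : ∀ x y v, a (x * y) v = a x (a y v))
    (ha0 : ∀ h, a h 0 = 0) (haadd : ∀ h u v, a h (u + v) = a h u + a h v)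
    (N : Subgroup H) (hN : N.index = 2) (hNc : ∀ x ∈ N, ∀ y ∈ N, x * y = y * x)
    (hfree : ∀ n ∈ N, ∀ u, a n u = u → n = 1 ∨ u = 0)
    (hcard : Nat.card X = 2 * Nat.card N + 1) :
    ∀ y : H, ∀ n ∈ N, y * n = n * y := by
  letI iAC : AddCommGroup X := { nf.toAddGroup with add_comm := hadd }
  let μ : H →* AddMonoid.End X :=
    { toFun := fun h =>
        { toFun := a h
          map_zero' := ha0 h
          map_add' := haadd h }
      map_one' := by
        apply AddMonoidHom.ext
        exact ha1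
      map_mul' := fun x y => by
        apply AddMonoidHom.ext
        exact hamul x y }
  exact comm_of_semilinear hp hX hf μ N hN hNc hfree hcard

/-- The inversion from the functional equation on a field. -/
theorem inv_of_data {K : Type*} [Field K] [Finite K] (Q : Subgroup Kˣ) (hQ : Q.index = 2)
    (S : K → K) (hS1 : S 1 = 1) (hS0 : S 0 = 0) (hSmul : ∀ x y, S (x * y) = S x * S y)
    (hSinj : Function.Injective S) (hSQ : ∀ u ∈ Q, S (u : K) = ((u⁻¹ : Kˣ) : K))
    (hstar : ∀ x : K, x ≠ 0 → x ≠ -1 → S (S x + 1) = 1 - S (x + 1)) (h2 : (2 : K) ≠ 0) :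
    ∀ x : K, x ≠ 0 → S x = x⁻¹ := by
  classical
  by_cases hm1 : (-1 : Kˣ) ∈ Q
  · apply Cfsg.Agent.Lib.Perm.ZP.inv_of_functional Q hQ hm1 S hS1 _ hstar
    intro u hu x
    rw [hSmul, hSQ u hu]
  · have hne : (-1 : K) ≠ 1 := by
      intro h
      apply h2
      have : (2 : K) = 1 - (-1) := by ring
      rw [this, h]
      ring
    have hSm1 : S (-1) = -1 := by
      have h1 : S (-1) * S (-1) = 1 := by
        rw [← hSmul]
        simp [hS1]
      have h3 : (S (-1) - 1) * (S (-1) + 1) = 0 := by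
        linear_combination h1
      rcases mul_eq_zero.mp h3 with h | h
      · exfalso
        have h4 : S (-1) = S 1 := by rw [hS1]; linear_combination h
        exact hne (hSinj h4)
      · linear_combination h
    intro x hx
    let u : Kˣ := Units.mk0 x hx
    by_cases hu : u ∈ Q
    · have := hSQ u hu
      simpa [u] using this
    · have h1 : (-1 : Kˣ) * u ∈ Q := by
        rw [Subgroup.mul_mem_iff_of_index_two hQ]
        exact ⟨fun h => absurd h hm1, fun h => absurd h hu⟩
      have h3 := hSQ _ h1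
      have h4 : (((-1 : Kˣ) * u : Kˣ) : K) = (-1) * x := by simp [u]
      rw [h4, hSmul, hSm1] at h3
      have h5 : (((-1 : Kˣ) * u)⁻¹ : Kˣ).val = -x⁻¹ := by
        simp [u]
      rw [h5] at h3
      linear_combination -h3

section Field

open MulAction

variable {α : Type*} [Fintype α] [DecidableEq α] {inf : α} {G : Subgroup (Equiv.Perm α)}

/-- The element `s` acts as inversion, provided a subgroup of index two of the two-point stabiliser
is inverted. -/
theorem field_stage [fld : Field {x : α // x ≠ inf}]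
    (hA : ∀ g ∈ G, g inf = inf → ∃ a b : {x : α // x ≠ inf}, a ≠ 0 ∧
      ∀ x : {x : α // x ≠ inf}, g x = ((x * a + b : {x : α // x ≠ inf}) : α))
    (hB : ∀ a b : {x : α // x ≠ inf}, a ≠ 0 → ∃ g ∈ G, g inf = inf ∧
      ∀ x : {x : α // x ≠ inf}, g x = ((x * a + b : {x : α // x ≠ inf}) : α))
    (hS : ∀ g ∈ G, ∀ a b c : α, a ≠ b → a ≠ c → b ≠ c → g a = a → g b = b → g c = c → g = 1)
    {s : Equiv.Perm α} (hs : s ∈ G) (hs1 : s inf = ((0 : {x : α // x ≠ inf}) : α))
    (hs2 : s ((0 : {x : α // x ≠ inf}) : α) = inf)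
    (hs3 : s ((1 : {x : α // x ≠ inf}) : α) = ((1 : {x : α // x ≠ inf}) : α))
    (N₁ : Subgroup ↥(stabilizer G inf ⊓ stabilizer G ((0 : {x : α // x ≠ inf}) : α)))
    (hN : N₁.index = 2)
    (hinv : ∀ h ∈ N₁, s * ((h : G) : Equiv.Perm α) * s⁻¹ = ((h : G) : Equiv.Perm α)⁻¹)
    (h2 : (2 : {x : α // x ≠ inf}) ≠ 0) :
    ∀ x : {x : α // x ≠ inf}, x ≠ 0 → ∃ y : {x : α // x ≠ inf}, x * y = 1 ∧ s x = y := by
  classical
  have h01 : (0 : {x : α // x ≠ inf}) ≠ 1 := zero_ne_one
  have h01' : ((0 : {x : α // x ≠ inf}) : α) ≠ ((1 : {x : α // x ≠ inf}) : α) :=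
    fun h => h01 (Subtype.ext h)
  have hss : s * s = 1 := hS (s * s) (mul_mem hs hs) inf ((0 : {x : α // x ≠ inf}) : α)
      ((1 : {x : α // x ≠ inf}) : α) (0 : {x : α // x ≠ inf}).2.symm (1 : {x : α // x ≠ inf}).2.symm h01'
      (by rw [Equiv.Perm.mul_apply, hs1, hs2]) (by rw [Equiv.Perm.mul_apply, hs2, hs1])
      (by rw [Equiv.Perm.mul_apply, hs3, hs3])
  have hss' : ∀ z : α, s (s z) = z := by
    intro z
    have := congrArg (fun f : Equiv.Perm α => f z) hss
    simpa using this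
  have hsne : ∀ x : {x : α // x ≠ inf}, x ≠ 0 → s x ≠ inf := by
    intro x hx h0
    apply hx
    apply Subtype.ext
    apply s.injective
    rw [h0, hs2]
  have hsne0 : ∀ x : {x : α // x ≠ inf}, s x ≠ ((0 : {x : α // x ≠ inf}) : α) := by
    intro x h0
    apply x.2
    apply s.injective
    rw [h0, hs1]
  -- the induced map
  obtain ⟨S, hS0, hSx⟩ : ∃ S : {x : α // x ≠ inf} → {x : α // x ≠ inf}, S 0 = 0 ∧
      ∀ x : {x : α // x ≠ inf}, x ≠ 0 → (S x : α) = s x := by
    refine ⟨fun x => if h : s x = inf then 0 else ⟨s x, h⟩, dif_pos hs2, fun x hx => ?_⟩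
    simp only
    rw [dif_neg (hsne x hx)]
  have hSne : ∀ x : {x : α // x ≠ inf}, x ≠ 0 → S x ≠ 0 := by
    intro x hx h0
    apply hsne0 x
    rw [← hSx x hx, h0]
  have hSS : ∀ x : {x : α // x ≠ inf}, S (S x) = x := by
    intro x
    by_cases hx : x = 0
    · rw [hx, hS0, hS0]
    · apply Subtype.ext
      rw [hSx _ (hSne x hx), hSx x hx, hss']
  have hS1 : S 1 = 1 := by
    apply Subtype.ext
    rw [hSx 1 h01.symm, hs3]
  have hSinj : Function.Injective S := by
    intro x y h
    rw [← hSS x, h, hSS]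
  have hSmul0 : ∀ x a : {x : α // x ≠ inf}, x ≠ 0 → a ≠ 0 → S (x * a) = S x * S a := by
    intro x a hx ha
    obtain ⟨ga, hga, hga1, hga2⟩ := hB a 0 ha
    have hga3 : ∀ z : {x : α // x ≠ inf}, ga z = ((z * a : {x : α // x ≠ inf}) : α) := by
      intro z
      rw [hga2, add_zero]
    have hcG : s * ga * s ∈ G := mul_mem (mul_mem hs hga) hs
    have hc1 : (s * ga * s) inf = inf := by
      rw [Equiv.Perm.mul_apply, Equiv.Perm.mul_apply, hs1, hga3, zero_mul, hs2]
    obtain ⟨a', b', ha', hab'⟩ := hA _ hcG hc1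
    have hb' : b' = 0 := by
      have h1 := hab' 0
      rw [Equiv.Perm.mul_apply, Equiv.Perm.mul_apply, hs2, hga1, hs1, zero_mul, zero_add] at h1
      exact (Subtype.ext h1).symm
    subst hb'
    have ha'1 : a' = S a := by
      have h1 := hab' 1
      rw [Equiv.Perm.mul_apply, Equiv.Perm.mul_apply, hs3, hga3, one_mul, one_mul, add_zero] at h1
      apply Subtype.ext
      rw [← h1, hSx a ha]
    subst ha'1
    apply Subtype.ext
    rw [hSx _ (mul_ne_zero hx ha), ← hga3]
    have h1 := hab' (S x)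
    rw [add_zero, Equiv.Perm.mul_apply, Equiv.Perm.mul_apply, hSx x hx, hss'] at h1
    exact h1
  have hSmul : ∀ x y, S (x * y) = S x * S y := by
    intro x y
    by_cases hx : x = 0
    · rw [hx, zero_mul, hS0, zero_mul]
    · by_cases hy : y = 0
      · rw [hy, mul_zero, hS0, mul_zero]
      · exact hSmul0 x y hx hy
  -- the two-point stabiliser
  let H₀ : Subgroup G := stabilizer G inf ⊓ stabilizer G ((0 : {x : α // x ≠ inf}) : α)
  have hst1 : ∀ h : H₀, ((h : G) : Equiv.Perm α) inf = inf := fun h => h.2.1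
  have hst0 : ∀ h : H₀, ((h : G) : Equiv.Perm α) ((0 : {x : α // x ≠ inf}) : α) = ((0 : {x : α // x ≠ inf}) : α) :=
    fun h => h.2.2
  have hne : ∀ (h : H₀) (x : {x : α // x ≠ inf}), ((h : G) : Equiv.Perm α) x ≠ inf := by
    intro h x h0
    apply x.2
    apply ((h : G) : Equiv.Perm α).injective
    rw [h0, hst1]
  let act : H₀ → {x : α // x ≠ inf} → {x : α // x ≠ inf} := fun h x => ⟨((h : G) : Equiv.Perm α) x, hne h x⟩
  have hact : ∀ (h : H₀) (x : {x : α // x ≠ inf}), ((act h x : {x : α // x ≠ inf}) : α) = ((h : G) : Equiv.Perm α) x :=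
    fun _ _ => rfl
  have hlin : ∀ (h : H₀) (x : {x : α // x ≠ inf}), act h x = x * act h 1 := by
    intro h x
    obtain ⟨c, d, hc, hcd⟩ := hA _ (h : G).2 (hst1 h)
    have hd : d = 0 := by
      have h1 := hcd 0
      rw [hst0, zero_mul, zero_add] at h1
      exact (Subtype.ext h1).symm
    subst hd
    have h1 : act h 1 = c := by
      apply Subtype.ext
      rw [hact, hcd, add_zero, one_mul]
    rw [h1]
    apply Subtype.ext
    rw [hact, hcd, add_zero]
  have hact1ne : ∀ h : H₀, act h 1 ≠ 0 := by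
    intro h h0
    have h1 : ((h : G) : Equiv.Perm α) ((1 : {x : α // x ≠ inf}) : α) =
        ((h : G) : Equiv.Perm α) ((0 : {x : α // x ≠ inf}) : α) := by
      rw [hst0, ← hact, h0]
    exact h01' (((h : G) : Equiv.Perm α).injective h1).symm
  have hactmul : ∀ (x y : H₀) (v : {x : α // x ≠ inf}), act (x * y) v = act x (act y v) := fun _ _ _ => rfl
  let r : H₀ →* ({x : α // x ≠ inf})ˣ :=
    { toFun := fun h => Units.mk0 (act h 1) (hact1ne h)
      map_one' := by
        apply Units.ext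
        rfl
      map_mul' := fun x y => by
        apply Units.ext
        show act (x * y) 1 = act x 1 * act y 1
        rw [hactmul, hlin x (act y 1), mul_comm] }
  have hrv : ∀ h : H₀, ((r h : ({x : α // x ≠ inf})ˣ) : {x : α // x ≠ inf}) = act h 1 := fun _ => rfl
  have hrinj : Function.Injective r := by
    intro x y hxy
    have h1 : act x 1 = act y 1 := by
      rw [← hrv, ← hrv, hxy]
    apply Subtype.ext
    apply Subtype.ext
    ext z
    by_cases hz : z = inf
    · rw [hz, hst1, hst1]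
    · have h3 : act x ⟨z, hz⟩ = act y ⟨z, hz⟩ := by
        rw [hlin x, hlin y, h1]
      exact congrArg Subtype.val h3
  have hrsurj : Function.Surjective r := by
    intro u
    obtain ⟨g, hg, hg1, hg2⟩ := hB (u : {x : α // x ≠ inf}) 0 u.ne_zero
    have hg0 : g ((0 : {x : α // x ≠ inf}) : α) = ((0 : {x : α // x ≠ inf}) : α) := by
      rw [hg2, zero_mul, add_zero]
    refine ⟨⟨⟨g, hg⟩, hg1, hg0⟩, ?_⟩
    apply Units.ext
    apply Subtype.ext
    show g ((1 : {x : α // x ≠ inf}) : α) = _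
    rw [hg2, one_mul, add_zero]
  let e : H₀ ≃* ({x : α // x ≠ inf})ˣ := MulEquiv.ofBijective r ⟨hrinj, hrsurj⟩
  let Q : Subgroup ({x : α // x ≠ inf})ˣ := N₁.comap e.symm.toMonoidHom
  have hQ : Q.index = 2 := by
    rw [Subgroup.index_comap_of_surjective N₁ (f := e.symm.toMonoidHom) e.symm.surjective, hN]
  have hSQ : ∀ u ∈ Q, S (u : {x : α // x ≠ inf}) = ((u⁻¹ : ({x : α // x ≠ inf})ˣ) : {x : α // x ≠ inf}) := by
    intro u hu
    set h : H₀ := e.symm u with hh
    have huh : (u : {x : α // x ≠ inf}) = act h 1 := by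
      have h1 : r h = u := e.apply_symm_apply u
      rw [← hrv, h1]
    have hhN : h ∈ N₁ := hu
    have h1 := hinv h hhN
    have h3 : ((h : G) : Equiv.Perm α) ((1 : {x : α // x ≠ inf}) : α) = u := by
      rw [huh]
    have hsi : s⁻¹ = s := inv_eq_of_mul_eq_one_left hss
    have h4 : s (u : {x : α // x ≠ inf}) = (((h : G) : Equiv.Perm α))⁻¹ ((1 : {x : α // x ≠ inf}) : α) := by
      rw [← h1, hsi, Equiv.Perm.mul_apply, Equiv.Perm.mul_apply, hs3, h3]
    have h5 : act h (S (u : {x : α // x ≠ inf})) = 1 := by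
      apply Subtype.ext
      rw [hact, hSx _ u.ne_zero, h4]
      simp
    rw [hlin, ← huh] at h5
    exact eq_inv_of_mul_eq_one_left h5 |>.trans (by simp)
  -- the functional equation
  have hm1 : (-1 : {x : α // x ≠ inf}) ≠ 1 := by
    intro h
    apply h2
    have : (2 : {x : α // x ≠ inf}) = 1 - (-1) := by ring
    rw [this, h]
    ring
  have hSm1 : S (-1) = -1 := by
    have h1 : S (-1) * S (-1) = 1 := by
      rw [← hSmul]
      simp [hS1]
    have h3 : (S (-1) - 1) * (S (-1) + 1) = 0 := by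
      linear_combination h1
    rcases mul_eq_zero.mp h3 with h | h
    · exfalso
      have h4 : S (-1) = S 1 := by rw [hS1]; linear_combination h
      exact hm1 (hSinj h4)
    · linear_combination h
  have hSneg : ∀ x, S (-x) = - S x := by
    intro x
    have h1 : -x = (-1) * x := by ring
    rw [h1, hSmul, hSm1]
    ring
  obtain ⟨ρ, hρ, hρ1, hρ2⟩ := hB (-1) 1 (neg_ne_zero.mpr one_ne_zero)
  have hρx : ∀ x : {x : α // x ≠ inf}, ρ x = ((1 - x : {x : α // x ≠ inf}) : α) := by
    intro x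
    rw [hρ2]
    congr 1
    ring
  have hρρ : ρ * ρ = 1 := by
    apply hS _ (mul_mem hρ hρ) inf ((0 : {x : α // x ≠ inf}) : α) ((1 : {x : α // x ≠ inf}) : α)
      (0 : {x : α // x ≠ inf}).2.symm (1 : {x : α // x ≠ inf}).2.symm h01'
    · rw [Equiv.Perm.mul_apply, hρ1, hρ1]
    · rw [Equiv.Perm.mul_apply, hρx, hρx]
      congr 1
      ring
    · rw [Equiv.Perm.mul_apply, hρx, hρx]
      congr 1
      ring
  have ht3 : (ρ * s) * (ρ * s) * (ρ * s) = 1 := by
    apply hS _ (mul_mem (mul_mem (mul_mem hρ hs) (mul_mem hρ hs)) (mul_mem hρ hs)) inf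
      ((0 : {x : α // x ≠ inf}) : α) ((1 : {x : α // x ≠ inf}) : α)
      (0 : {x : α // x ≠ inf}).2.symm (1 : {x : α // x ≠ inf}).2.symm h01'
    · simp only [Equiv.Perm.mul_apply]
      rw [hs1, hρx, show ((1 : {x : α // x ≠ inf}) - 0) = 1 by ring, hs3, hρx,
        show ((1 : {x : α // x ≠ inf}) - 1) = 0 by ring, hs2, hρ1]
    · simp only [Equiv.Perm.mul_apply]
      rw [hs2, hρ1, hs1, hρx, show ((1 : {x : α // x ≠ inf}) - 0) = 1 by ring, hs3, hρx,
        show ((1 : {x : α // x ≠ inf}) - 1) = 0 by ring]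
    · simp only [Equiv.Perm.mul_apply]
      rw [hs3, hρx, show ((1 : {x : α // x ≠ inf}) - 1) = 0 by ring, hs2, hρ1, hs1, hρx,
        show ((1 : {x : α // x ≠ inf}) - 0) = 1 by ring]
  have hrel : ∀ z : α, s (ρ (s z)) = ρ (s (ρ z)) := by
    intro z
    have h1 : s * ρ * s = ρ * s * ρ := by
      have hρi : ρ⁻¹ = ρ := inv_eq_of_mul_eq_one_left hρρ
      have hsi : s⁻¹ = s := inv_eq_of_mul_eq_one_left hss
      have h3 : (ρ * s * ρ) * (s * ρ * s) = 1 := by
        rw [← ht3]
        group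
      have h4 : s * ρ * s = (ρ * s * ρ)⁻¹ := eq_inv_of_mul_eq_one_right h3
      rw [h4]
      simp only [mul_inv_rev, hρi, hsi, mul_assoc]
    have := congrArg (fun f : Equiv.Perm α => f z) h1
    simpa using this
  have hstar : ∀ x : {x : α // x ≠ inf}, x ≠ 0 → x ≠ -1 → S (S x + 1) = 1 - S (x + 1) := by
    intro x hx0 hx1
    have hxn : -x ≠ 0 := neg_ne_zero.mpr hx0
    have h1 := hrel ((-x : {x : α // x ≠ inf}) : α)
    have h3 : S x + 1 ≠ 0 := by
      intro h0
      apply hx1
      have h4 : S x = -1 := by linear_combination h0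
      have h5 := congrArg S h4
      rw [hSS, hSm1] at h5
      exact h5
    have h4 : x + 1 ≠ 0 := by
      intro h0
      apply hx1
      linear_combination h0
    rw [← hSx _ hxn, hSneg, hρx, show (1 - -S x) = S x + 1 by ring, ← hSx _ h3, hρx,
      show (1 - -x) = x + 1 by ring, ← hSx _ h4, hρx, hSx _ h3] at h1
    rw [← hSx _ h3] at h1
    exact Subtype.ext h1
  have hfin : Finite {x : α // x ≠ inf} := inferInstance
  have hmain := inv_of_data Q hQ S hS1 hS0 hSmul hSinj hSQ hstar h2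
  intro x hx
  refine ⟨x⁻¹, mul_inv_cancel₀ hx, ?_⟩
  rw [← hSx x hx, hmain x hx]

end Field

section Main

open MulAction OnePoint Cfsg.Agent.Lib.Perm.ST

/-- Recognition of `PGL(2, X)` from affine coordinates and the inversion. -/
theorem pgl_of_data {α : Type} [Fintype α] [DecidableEq α] {inf : α} {G : Subgroup (Equiv.Perm α)}
    [fld : Field {x : α // x ≠ inf}]
    (hA : ∀ g ∈ G, g inf = inf → ∃ a b : {x : α // x ≠ inf}, a ≠ 0 ∧
      ∀ x : {x : α // x ≠ inf}, g x = ((x * a + b : {x : α // x ≠ inf}) : α))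
    (hB : ∀ a b : {x : α // x ≠ inf}, a ≠ 0 → ∃ g ∈ G, g inf = inf ∧
      ∀ x : {x : α // x ≠ inf}, g x = ((x * a + b : {x : α // x ≠ inf}) : α))
    {s : Equiv.Perm α} (hs : s ∈ G) (hs1 : s inf = ((0 : {x : α // x ≠ inf}) : α))
    (hs2 : s ((0 : {x : α // x ≠ inf}) : α) = inf)
    (hs3 : ∀ x : {x : α // x ≠ inf}, x ≠ 0 → ∃ y : {x : α // x ≠ inf}, x * y = 1 ∧ s x = y) :
    Nonempty (G ≃* Matrix.ProjGenLinGroup (Fin 2) {x : α // x ≠ inf}) := by
  classical
  let θ : OnePoint {x : α // x ≠ inf} ≃ α := Equiv.optionSubtypeNe inf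
  have hθ1 : θ ∞ = inf := rfl
  have hθ2 : ∀ k : {x : α // x ≠ inf}, θ (k : OnePoint {x : α // x ≠ inf}) = k := fun _ => rfl
  have hθ3 : θ.symm inf = ∞ := by
    rw [Equiv.symm_apply_eq]
    rfl
  have hθ4 : ∀ k : {x : α // x ≠ inf}, θ.symm (k : α) = (k : OnePoint {x : α // x ≠ inf}) := by
    intro k
    rw [Equiv.symm_apply_eq]
    rfl
  let κ : Equiv.Perm α ≃* Equiv.Perm (OnePoint {x : α // x ≠ inf}) := θ.symm.permCongrHom
  have hκ : ∀ (g : Equiv.Perm α) (z : OnePoint {x : α // x ≠ inf}), κ g z = θ.symm (g (θ z)) := fun _ _ => rfl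
  have hR := range_eq (F := {x : α // x ≠ inf}) (G.map κ.toMonoidHom)
    (by
      rintro _ ⟨g, hg, rfl⟩ h1
      have h2 : g inf = inf := by
        have h3 : θ.symm (g inf) = ∞ := h1
        rw [Equiv.symm_apply_eq] at h3
        exact h3
      obtain ⟨a, b, ha, hab⟩ := hA g hg h2
      refine ⟨a, b, ha, fun k => ?_⟩
      show κ g k = _
      rw [hκ, hθ2, hab, hθ4, mul_comm])
    (by
      intro a b ha
      obtain ⟨g, hg, h1, h2⟩ := hB a b ha
      refine ⟨κ g, ⟨g, hg, rfl⟩, ?_, fun k => ?_⟩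
      · rw [hκ, hθ1, h1, hθ3]
      · rw [hκ, hθ2, h2, hθ4, mul_comm])
    ⟨κ s, ⟨s, hs, rfl⟩, by rw [hκ, hθ1, hs1, hθ4],
      by
        rw [hκ, hθ2, hs2, hθ3],
      fun k hk => by
        obtain ⟨y, hy1, hy2⟩ := hs3 k hk
        have hy : y = k⁻¹ := eq_inv_of_mul_eq_one_left (by rw [mul_comm]; exact hy1)
        rw [hκ, hθ2, hy2, hθ4, hy]⟩
  exact ⟨(κ.subgroupMap G).trans ((MulEquiv.subgroupCongr hR).trans pglEquivRange.symm)⟩

/-- The theorem for point sets in the lowest universe. -/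
theorem main_odd {α : Type} [Fintype α] [DecidableEq α] {p f : ℕ} (hp : p.Prime) (hp2 : p ≠ 2)
    (hfo : Odd f) (hα : Fintype.card α = p ^ f + 1) (G : Subgroup (Equiv.Perm α))
    (h3 : MulAction.IsMultiplyPretransitive G α 3)
    (hsharp : ∀ x : Fin 3 ↪ α, MulAction.stabilizer G x = ⊥) :
    ∃ (F : Type) (_ : Field F) (_ : Fintype F), Fintype.card F = p ^ f ∧
      Nonempty (G ≃* Matrix.ProjGenLinGroup (Fin 2) F) := by
  classical
  have htri : ∀ (a b c : α), a ≠ b → a ≠ c → b ≠ c → ∃ x : Fin 3 ↪ α, x 0 = a ∧ x 1 = b ∧ x 2 = c := by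
    intro a b c hab hac hbc
    refine ⟨⟨![a, b, c], ?_⟩, rfl, rfl, rfl⟩
    intro i j h
    fin_cases i <;> fin_cases j <;> simp_all
  have hT : ∀ a b c a' b' c' : α, a ≠ b → a ≠ c → b ≠ c → a' ≠ b' → a' ≠ c' → b' ≠ c' →
      ∃ g ∈ G, g a = a' ∧ g b = b' ∧ g c = c' := by
    intro a b c a' b' c' h1 h2 h3' h4 h5 h6
    obtain ⟨x, hx0, hx1, hx2⟩ := htri a b c h1 h2 h3'
    obtain ⟨y, hy0, hy1, hy2⟩ := htri a' b' c' h4 h5 h6
    obtain ⟨g, hg⟩ := MulAction.IsPretransitive.exists_smul_eq (M := G) x y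
    refine ⟨g, g.2, ?_, ?_, ?_⟩
    · rw [← hx0, ← hy0, ← hg]; rfl
    · rw [← hx1, ← hy1, ← hg]; rfl
    · rw [← hx2, ← hy2, ← hg]; rfl
  have hS : ∀ g ∈ G, ∀ a b c : α, a ≠ b → a ≠ c → b ≠ c → g a = a → g b = b → g c = c → g = 1 := by
    intro g hg a b c h1 h2 h3' h4 h5 h6
    obtain ⟨x, hx0, hx1, hx2⟩ := htri a b c h1 h2 h3'
    have hmem : (⟨g, hg⟩ : G) ∈ MulAction.stabilizer G x := by
      rw [MulAction.mem_stabilizer_iff]
      ext i
      fin_cases i
      · show g (x 0) = x 0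
        rw [hx0, h4]
      · show g (x 1) = x 1
        rw [hx1, h5]
      · show g (x 2) = x 2
        rw [hx2, h6]
    rw [hsharp x, Subgroup.mem_bot] at hmem
    exact congrArg Subtype.val hmem
  have hp3 : 3 ≤ p := by
    have := hp.two_le
    omega
  have hf1 : 1 ≤ f := by
    obtain ⟨k, hk⟩ := hfo
    omega
  have hq3 : 3 ≤ p ^ f := le_trans hp3 (Nat.le_self_pow (by omega) p)
  have hqodd : Odd (p ^ f) := (hp.odd_of_ne_two hp2).pow
  obtain ⟨inf⟩ : Nonempty α := Fintype.card_pos_iff.mp (by omega)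
  obtain ⟨nf, hA, hB⟩ := Cfsg.Agent.Lib.Perm.SharpEven.exists_nearField_setup (G := G) (inf := inf)
    hT hS (by omega)
  have hcardX : Fintype.card {x : α // x ≠ inf} = p ^ f := by
    have := Fintype.card_congr (Equiv.optionSubtypeNe inf)
    rw [Fintype.card_option] at this
    omega
  have hcardX' : Nat.card {x : α // x ≠ inf} = p ^ f := by
    rw [Nat.card_eq_fintype_card, hcardX]
  obtain ⟨_, _, _, _, _, hadd, _⟩ := nearField_finite_structure (F := {x : α // x ≠ inf})
  have h01 : (0 : {x : α // x ≠ inf}) ≠ 1 := Cfsg.NearField.zero_ne_one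
  have h01' : ((0 : {x : α // x ≠ inf}) : α) ≠ ((1 : {x : α // x ≠ inf}) : α) :=
    fun h => h01 (Subtype.ext h)
  have hi0 : inf ≠ ((0 : {x : α // x ≠ inf}) : α) := (0 : {x : α // x ≠ inf}).2.symm
  have hi1 : inf ≠ ((1 : {x : α // x ≠ inf}) : α) := (1 : {x : α // x ≠ inf}).2.symm
  obtain ⟨s, hs, hs1, hs2, hs3⟩ := hT inf ((0 : {x : α // x ≠ inf}) : α) ((1 : {x : α // x ≠ inf}) : α)
    ((0 : {x : α // x ≠ inf}) : α) inf ((1 : {x : α // x ≠ inf}) : α) hi0 hi1 h01' hi0.symm h01' hi1
  have hss : s * s = 1 := hS (s * s) (mul_mem hs hs) inf ((0 : {x : α // x ≠ inf}) : α)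
      ((1 : {x : α // x ≠ inf}) : α) hi0 hi1 h01'
      (by rw [Equiv.Perm.mul_apply, hs1, hs2]) (by rw [Equiv.Perm.mul_apply, hs2, hs1])
      (by rw [Equiv.Perm.mul_apply, hs3, hs3])
  have hsi : s⁻¹ = s := inv_eq_of_mul_eq_one_left hss
  let sg : G := ⟨s, hs⟩
  let H₀ : Subgroup G := stabilizer G inf ⊓ stabilizer G ((0 : {x : α // x ≠ inf}) : α)
  have hst1 : ∀ h : H₀, ((h : G) : Equiv.Perm α) inf = inf := fun h => h.2.1
  have hst0 : ∀ h : H₀, ((h : G) : Equiv.Perm α) ((0 : {x : α // x ≠ inf}) : α) = ((0 : {x : α // x ≠ inf}) : α) :=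
    fun h => h.2.2
  have hne : ∀ (h : H₀) (x : {x : α // x ≠ inf}), ((h : G) : Equiv.Perm α) x ≠ inf := by
    intro h x h0
    apply x.2
    apply ((h : G) : Equiv.Perm α).injective
    rw [h0, hst1]
  let act : H₀ → {x : α // x ≠ inf} → {x : α // x ≠ inf} := fun h x => ⟨((h : G) : Equiv.Perm α) x, hne h x⟩
  have hact : ∀ (h : H₀) (x : {x : α // x ≠ inf}), ((act h x : {x : α // x ≠ inf}) : α) = ((h : G) : Equiv.Perm α) x :=
    fun _ _ => rfl
  have hlin : ∀ (h : H₀) (x : {x : α // x ≠ inf}), act h x = x * act h 1 := by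
    intro h x
    obtain ⟨c, d, hc, hcd⟩ := hA _ (h : G).2 (hst1 h)
    have hd : d = 0 := by
      have h1 := hcd 0
      rw [hst0, nf_zero_mul, zero_add] at h1
      exact (Subtype.ext h1).symm
    subst hd
    have h1 : act h 1 = c := by
      apply Subtype.ext
      rw [hact, hcd, add_zero, one_mul]
    rw [h1]
    apply Subtype.ext
    rw [hact, hcd, add_zero]
  have hact1ne : ∀ h : H₀, act h 1 ≠ 0 := by
    intro h h0
    have h1 : ((h : G) : Equiv.Perm α) ((1 : {x : α // x ≠ inf}) : α) =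
        ((h : G) : Equiv.Perm α) ((0 : {x : α // x ≠ inf}) : α) := by
      rw [hst0, ← hact, h0]
    exact h01' (((h : G) : Equiv.Perm α).injective h1).symm
  have hactmul : ∀ (x y : H₀) (v : {x : α // x ≠ inf}), act (x * y) v = act x (act y v) := fun _ _ _ => rfl
  have hH₀inj : ∀ x y : H₀, act x 1 = act y 1 → x = y := by
    intro x y h1
    apply Subtype.ext
    apply Subtype.ext
    ext z
    by_cases hz : z = inf
    · rw [hz, hst1, hst1]
    · have h3 : act x ⟨z, hz⟩ = act y ⟨z, hz⟩ := by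
        rw [hlin x, hlin y, h1]
      exact congrArg Subtype.val h3
  have hH₀surj : ∀ c : {x : α // x ≠ inf}, c ≠ 0 → ∃ h : H₀, act h 1 = c := by
    intro c hc
    obtain ⟨g, hg, hg1, hg2⟩ := hB c 0 hc
    have hg0 : g ((0 : {x : α // x ≠ inf}) : α) = ((0 : {x : α // x ≠ inf}) : α) := by
      rw [hg2, nf_zero_mul, add_zero]
    refine ⟨⟨⟨g, hg⟩, hg1, hg0⟩, ?_⟩
    apply Subtype.ext
    show g ((1 : {x : α // x ≠ inf}) : α) = _
    rw [hg2, one_mul, add_zero]
  have hcardH₀ : Nat.card H₀ + 1 = p ^ f := by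
    have h1 : Nat.card H₀ = Nat.card {x : {x : α // x ≠ inf} // x ≠ 0} := by
      apply Nat.card_eq_of_bijective (fun h : H₀ => (⟨act h 1, hact1ne h⟩ : {x : {x : α // x ≠ inf} // x ≠ 0}))
      constructor
      · intro x y hxy
        exact hH₀inj x y (congrArg Subtype.val hxy)
      · rintro ⟨c, hc⟩
        obtain ⟨h, hh⟩ := hH₀surj c hc
        exact ⟨h, Subtype.ext hh⟩
    have h2 := Fintype.card_congr (Equiv.optionSubtypeNe (0 : {x : α // x ≠ inf}))
    rw [Fintype.card_option] at h2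
    rw [h1, Nat.card_eq_fintype_card]
    omega
  -- the subgroup of index two
  obtain ⟨N₁, hN₁, hst⟩ : ∃ N₁ : Subgroup H₀, N₁.index = 2 ∧ ∀ n ∈ N₁, s * ((n : G) : Equiv.Perm α) * s⁻¹ ∈
      (N₁.map (H₀.subtype)).map G.subtype := by
    by_cases h6 : 6 ≤ Fintype.card α
    · obtain ⟨N, hN1, hN2, hN3, hN4⟩ := Cfsg.Agent.S0729.result (by rw [hα]; exact hqodd.add_one) h6 G h3 hsharp hi0 hi1 h01' sg hs1 hs2 hs3
      refine ⟨N.subgroupOf H₀, hN3, fun n hn => ?_⟩
      have h1 := hN4 _ hn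
      refine ⟨sg * (n : G) * sg⁻¹, ?_, rfl⟩
      refine ⟨⟨sg * (n : G) * sg⁻¹, hN1 h1⟩, h1, rfl⟩
    · have hq : p ^ f = 3 := by
        have h1 : p ^ f < 5 := by omega
        obtain ⟨k, hk⟩ := hqodd
        omega
      have hH2 : Nat.card H₀ = 2 := by omega
      refine ⟨⊥, ?_, fun n hn => ?_⟩
      · rw [Subgroup.index_bot]
        exact hH2
      · have h1 : n = 1 := Subgroup.mem_bot.mp hn
        rw [h1]
        refine ⟨1, one_mem _, ?_⟩
        simp
  have hN₁n : N₁.Normal := Subgroup.normal_of_index_eq_two hN₁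
  -- the automorphism
  have hconj : ∀ h : H₀, sg * (h : G) * sg⁻¹ ∈ H₀ := by
    intro h
    have hsg : sg⁻¹ = sg := by
      apply Subtype.ext
      exact hsi
    rw [hsg]
    constructor
    · show s (((h : G) : Equiv.Perm α) (s inf)) = inf
      rw [hs1, hst0, hs2]
    · show s (((h : G) : Equiv.Perm α) (s ((0 : {x : α // x ≠ inf}) : α))) = ((0 : {x : α // x ≠ inf}) : α)
      rw [hs2, hst1, hs1]
  let σ : H₀ →* H₀ :=
    { toFun := fun h => ⟨sg * h * sg⁻¹, hconj h⟩
      map_one' := by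
        apply Subtype.ext
        simp
      map_mul' := fun x y => by
        apply Subtype.ext
        show sg * ((x : G) * (y : G)) * sg⁻¹ = (sg * x * sg⁻¹) * (sg * y * sg⁻¹)
        group }
  have hσv : ∀ h : H₀, (((σ h : H₀) : G) : Equiv.Perm α) = s * ((h : G) : Equiv.Perm α) * s⁻¹ := fun _ => rfl
  have hσ : ∀ x, σ (σ x) = x := by
    intro x
    apply Subtype.ext
    apply Subtype.ext
    rw [hσv, hσv, hsi]
    calc s * (s * ((x : G) : Equiv.Perm α) * s) * s = (s * s) * ((x : G) : Equiv.Perm α) * (s * s) := by group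
      _ = _ := by rw [hss]; simp
  have hNst : ∀ x ∈ N₁, σ x ∈ N₁ := by
    intro x hx
    obtain ⟨_, ⟨y, hy, rfl⟩, h2⟩ := hst x hx
    have h3 : y = σ x := by
      apply Subtype.ext
      apply Subtype.ext
      rw [hσv]
      exact h2
    rw [← h3]
    exact hy
  have hfix : ∀ x y z, σ x = x → σ y = y → σ z = z → x = y ∨ x = z ∨ y = z := by
    intro x y z hx hy hz
    have key : ∀ w : H₀, σ w = w → s (act w 1 : {x : α // x ≠ inf}) = (act w 1 : {x : α // x ≠ inf}) := by
      intro w hw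
      have h1 : s * ((w : G) : Equiv.Perm α) * s⁻¹ = ((w : G) : Equiv.Perm α) := by
        rw [← hσv, hw]
      have h2 := congrArg (fun f : Equiv.Perm α => f ((1 : {x : α // x ≠ inf}) : α)) h1
      simp only [Equiv.Perm.mul_apply, hsi, hs3] at h2
      exact h2
    by_contra hcon
    push Not at hcon
    obtain ⟨h1, h2, h4⟩ := hcon
    have hne12 : ((act x 1 : {x : α // x ≠ inf}) : α) ≠ (act y 1 : {x : α // x ≠ inf}) :=
      fun h => h1 (hH₀inj _ _ (Subtype.ext h))
    have hne13 : ((act x 1 : {x : α // x ≠ inf}) : α) ≠ (act z 1 : {x : α // x ≠ inf}) :=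
      fun h => h2 (hH₀inj _ _ (Subtype.ext h))
    have hne23 : ((act y 1 : {x : α // x ≠ inf}) : α) ≠ (act z 1 : {x : α // x ≠ inf}) :=
      fun h => h4 (hH₀inj _ _ (Subtype.ext h))
    have h5 := hS s hs _ _ _ hne12 hne13 hne23 (key x hx) (key y hy) (key z hz)
    rw [h5] at hs1
    exact hi0 hs1
  have hinv := inverts_of_index_two σ hσ N₁ hN₁ hNst hfix
  have hNc : ∀ x ∈ N₁, ∀ y ∈ N₁, x * y = y * x := by
    intro x hx y hy
    have h1 := hinv _ (mul_mem hx hy)
    rw [map_mul, hinv x hx, hinv y hy, ← mul_inv_rev] at h1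
    exact (inv_injective h1).symm
  have hcardN : Nat.card {x : α // x ≠ inf} = 2 * Nat.card N₁ + 1 := by
    have h1 := N₁.card_mul_index
    rw [hN₁] at h1
    rw [hcardX']
    omega
  have hact0 : ∀ h : H₀, act h 0 = 0 := by
    intro h
    apply Subtype.ext
    rw [hact, hst0]
  have hcent := comm_of_near hp hcardX' hfo hadd act
    (fun v => rfl) hactmul hact0
    (fun h u v => by
      rw [hlin h (u + v), hlin h u, hlin h v, Cfsg.NearField.right_distrib])
    N₁ hN₁ hNc
    (fun n _ u hu => by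
      by_cases hu0 : u = 0
      · exact Or.inr hu0
      · left
        have hu' : ((n : G) : Equiv.Perm α) (u : α) = u := congrArg Subtype.val hu
        have h1 := hS _ (n : G).2 inf ((0 : {x : α // x ≠ inf}) : α) u hi0 u.2.symm
          (fun h => hu0 (Subtype.ext h).symm) (hst1 n) (hst0 n) hu'
        apply Subtype.ext
        apply Subtype.ext
        exact h1) hcardN
  have hcomm : ∀ x y : H₀, x * y = y * x := by
    intro x y
    by_cases hx : x ∈ N₁
    · exact (hcent y x hx).symm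
    · by_cases hy : y ∈ N₁
      · exact hcent x y hy
      · have h1 : x⁻¹ * y ∈ N₁ := by
          rw [Subgroup.mul_mem_iff_of_index_two hN₁]
          constructor
          · intro h
            exact absurd (by simpa using inv_mem h) hx
          · intro h
            exact absurd h hy
        have h2 := hcent x _ h1
        calc x * y = x * (x * (x⁻¹ * y)) := by group
          _ = x * ((x⁻¹ * y) * x) := by rw [h2]
          _ = y * x := by group
  have hmulc : ∀ c d : {x : α // x ≠ inf}, c * d = d * c := by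
    intro c d
    by_cases hc : c = 0
    · rw [hc, nf_zero_mul, Cfsg.NearField.mul_zero]
    by_cases hd : d = 0
    · rw [hd, nf_zero_mul, Cfsg.NearField.mul_zero]
    obtain ⟨x, hx⟩ := hH₀surj c hc
    obtain ⟨y, hy⟩ := hH₀surj d hd
    have h1 := congrArg (fun w : H₀ => act w 1) (hcomm x y)
    simp only [hactmul] at h1
    rw [hlin x (act y 1), hlin y (act x 1), hx, hy] at h1
    exact h1.symm
  -- the field
  letI fld : Field {x : α // x ≠ inf} := nfField hadd hmulc
  have h2 : (2 : {x : α // x ≠ inf}) ≠ 0 := by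
    intro h0
    have h4 : (2 : ℕ) • (1 : {x : α // x ≠ inf}) = 0 := by
      rw [two_nsmul, one_add_one_eq_two, h0]
    have h5 : addOrderOf (1 : {x : α // x ≠ inf}) ∣ 2 := addOrderOf_dvd_of_nsmul_eq_zero h4
    have h6 : addOrderOf (1 : {x : α // x ≠ inf}) ∣ Nat.card {x : α // x ≠ inf} := addOrderOf_dvd_natCard _
    rw [hcardX'] at h6
    have h7 : Nat.Coprime (p ^ f) 2 := Nat.coprime_two_right.mpr hqodd
    have h8 : addOrderOf (1 : {x : α // x ≠ inf}) = 1 :=
      Nat.Coprime.eq_one_of_dvd (Nat.Coprime.coprime_dvd_left h6 h7) h5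
    rw [AddMonoid.addOrderOf_eq_one_iff] at h8
    exact one_ne_zero h8
  have hfinal := @field_stage α _ _ inf G fld hA hB hS s hs hs1 hs2 hs3 N₁ hN₁
    (fun h hh => by
      have h1 := congrArg (fun w : H₀ => ((w : G) : Equiv.Perm α)) (hinv h hh)
      exact h1) h2
  refine ⟨{x : α // x ≠ inf}, fld, inferInstance, hcardX, ?_⟩
  exact @pgl_of_data α _ _ inf G fld hA hB s hs hs1 hs2 hfinal

end Main

end Cfsg.Agent.Lib.Perm.SharpOdd
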